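import Cfsg.Agent.Tw.Rank
import Cfsg.Agent.Chev.ReflE6
import Cfsg.Agent.Tw.InvTw

/-! Involution class data, TE6. -/

set_option autoImplicit false

namespace Cfsg.Agent.Tw

open Cfsg.Lie Cfsg.Agent.Chev

variable {F : Type*} [Field F] {G : Type*} [Group G] {S : Sys certE6 F G}

/-- tables -/
def tabTE6 : Tab where
  f := reflE6
  ρ r := [0, 1, 2, 5, 16, 3, 6, 17, 8, 19, 22, 11, 26, 30, 33, 35, 4, 7, 18, 9, 20, 23, 10, 21, 24, 25, 12, 27, 31, 34, 13, 28, 32, 14, 29, 15, 56, 42, 57, 39, 43, 58, 37, 40, 44, 59, 46, 47, 50, 61, 48, 51, 62, 53, 64, 67, 36, 38, 41, 45, 60, 49, 52, 63, 54, 65, 68, 55, 66, 69, 70, 71].getD r 0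
  π r := [5, 1, 4, 3, 2, 0].getD r 0
  ow := [[1], [3], [0, 5], [2, 4]]
  l0 := [0, 1, 2, 0, 3, 1, 2, 0, 3, 2, 4, 3, 1, 2, 0, 3, 2, 4, 3, 1, 5, 4, 3, 1, 2, 0, 3, 2, 4, 3, 1, 5, 4, 3, 2, 0]
  ref := true

theorem l0TE6 : tabTE6.okL chevE6 (2 ^ chevE6.rank - 1) tabTE6.l0 = true := by decide +kernel

/-- canonical words -/
def csTE6 : List (List (List ℕ × ℕ)) := [[], [([], 3), ([2, 3], 4), ([0, 2, 3, 4], 5), ([1, 3, 2, 0, 4, 3, 1, 2, 3, 4], 5)], [([], 3), ([2, 3], 4), ([0, 2, 3, 4], 5)], [([], 3), ([2, 3], 4)], [([], 3)]]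

/-- data for the sets of nodes -/
def dJTE6 : List (List ℕ × ℕ × List ℕ) := [([], 1, []), ([], 0, []), ([1], 2, [1, 3, 2, 1, 3, 1, 0]), ([], 0, []), ([], 0, []), ([], 0, []), ([], 0, []), ([], 0, []), ([3], 2, [3, 2, 0, 1, 3, 1, 0]), ([], 0, []), ([1, 3, 1], 99, []), ([], 0, []), ([], 0, []), ([], 0, []), ([], 0, []), ([], 0, []), ([], 0, []), ([], 0, []), ([], 0, []), ([], 0, []), ([2, 4], 99, []), ([], 0, []), ([1, 2, 4], 99, []), ([], 0, []), ([], 0, []), ([], 0, []), ([], 0, []), ([], 0, []), ([2, 3, 2, 4, 3, 2], 3, [2, 3, 0, 1, 3, 2, 1, 0]), ([], 0, []), ([1, 2, 3, 1, 2, 3, 4, 3, 1, 2, 3, 4], 99, []), ([], 0, []), ([], 0, []), ([0, 5], 99, []), ([], 0, []), ([0, 1, 5], 99, []), ([], 0, []), ([], 0, []), ([], 0, []), ([], 0, []), ([], 0, []), ([0, 3, 5], 99, []), ([], 0, []), ([0, 1, 3, 1, 5], 99, []), ([], 0, []), ([], 0, []), ([], 0, []), ([], 0,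 []), ([], 0, []), ([], 0, []), ([], 0, []), ([], 0, []), ([], 0, []), ([0, 2, 0, 4, 5, 4], 99, []), ([], 0, []), ([0, 1, 2, 0, 4, 5, 4], 99, []), ([], 0, []), ([], 0, []), ([], 0, []), ([], 0, []), ([], 0, []), ([0, 2, 0, 3, 2, 0, 4, 3, 2, 0, 5, 4, 3, 2, 0], 4, [0, 1, 3, 2, 1, 3, 0]), ([], 0, []), ([0, 1, 2, 0, 3, 1, 2, 0, 3, 2, 4, 3, 1, 2, 0, 3, 2, 4, 3, 1, 5, 4, 3, 1, 2, 0, 3, 2, 4, 3, 1, 5, 4, 3, 2, 0], 0, [])]

/-- representatives -/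
def repsTE6 : List (List ℕ) := [[39], [39, 44], [39, 44, 60]]

/-- reductions -/
def rdTE6 : List (ℕ × List (Bool × List ℕ)) := [(0, []), (2, [(true, [63, 39, 51, 47])]), (2, []), (1, []), (0, [])]

theorem okCTE6 : csTE6.all (tabTE6.okC chevE6) = true := by decide +kernel

theorem okJTE6 : allLt (2 ^ chevE6.rank) (fun n => tabTE6.okJ chevE6 csTE6 n (dJTE6.getD n ([], 0, []))) = true := by
  decide +kernel

theorem okRTE6 : tabTE6.okR chevE6 csTE6 repsTE6 rdTE6 = true := by decide +kernel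

theorem rkTE6_0 [CharP F 2] {T : Stb S} {K : Subgroup G} (h : tabTE6.Fit T K) :
    rk S (pw S [39]) = 22 :=
  h.rk_eq (c := csTE6.getD 4 []) (by decide +kernel) (k := 1) (B := [[0], [0], [0], [1], [0], [0]]) (B' := [[0, 1, 1, 0, 1, 0]]) (L := [[0, 0, 0, 1, 0, 0]]) (R := [[0], [1], [0], [0], [0], [0]])
    (by decide +kernel) (M := (rdTE6.getD 4 (0, [])).2) (by decide +kernel)

theorem rkTE6_1 [CharP F 2] {T : Stb S} {K : Subgroup G} (h : tabTE6.Fit T K) :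
    rk S (pw S [39, 44]) = 32 :=
  h.rk_eq (c := csTE6.getD 3 []) (by decide +kernel) (k := 2) (B := [[0, 0], [0, 0], [1, 1], [1, 0], [1, 1], [0, 0]]) (B' := [[1, 0, 0, 0, 0, 1], [0, 1, 1, 0, 1, 0]]) (L := [[0, 0, 0, 1, 0, 0], [0, 0, 0, 1, 1, 0]]) (R := [[1, 0], [0, 1], [0, 0], [0, 0], [0, 0], [0, 0]])
    (by decide +kernel) (M := (rdTE6.getD 3 (0, [])).2) (by decide +kernel)

theorem rkTE6_2 [CharP F 2] {T : Stb S} {K : Subgroup G} (h : tabTE6.Fit T K) :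
    rk S (pw S [39, 44, 60]) = 38 :=
  h.rk_eq (c := csTE6.getD 2 []) (by decide +kernel) (k := 3) (B := [[1, 1, 0], [0, 0, 0], [0, 0, 1], [0, 1, 0], [0, 0, 1], [1, 1, 0]]) (B' := [[1, 0, 0, 0, 0, 1], [0, 1, 0, 0, 0, 0], [0, 0, 1, 0, 1, 0]]) (L := [[0, 0, 0, 1, 0, 1], [0, 0, 0, 1, 0, 0], [0, 0, 0, 0, 1, 0]]) (R := [[1, 0, 0], [0, 1, 0], [0, 0, 1], [0, 0, 0], [0, 0, 0], [0, 0, 0]])
    (by decide +kernel) (M := (rdTE6.getD 2 (0, [])).2) (by decide +kernel)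

theorem fitTE6 [CharP F 2] {φ : F ≃+* F} {K : Subgroup (chevE6.group F)} (hK : (stbE6 φ).Good K)
    (h3 : ∀ t, φ (φ t) = t) (hne : ∃ t, φ t ≠ t) : tabTE6.Fit (stbE6 φ) K := by
  refine ⟨hK, ssE6, symE6.e_two _ _, by change ∀ r, (symE6.ρ r : ℕ) = _; decide +kernel,
    by change ∀ r, (symE6.ν r : ℕ) = _; decide +kernel, fun l hl => fixE6 hK h3 (Stb.σ_nW (certE6.sys_φ_inj F)
      (symE6.e_two _ _) ssE6 ?_), l0TE6, fun _ => Stb.sep_of (map_one φ) hne fun j => ?_⟩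
  · revert l; change ∀ l ∈ _, sameW _ _ _ (List.map _ (List.map symE6.ν _)) _ = true; decide +kernel
  have he : ∀ r, (stbE6 φ).e r = 1 := symE6.e_two symE6_ok φ
  by_cases h : (stbE6 φ).π j = j
  · refine Or.inl ⟨h, fixE6 hK h3 ?_⟩
    rw [Stb.σ_x, Stb.rev, Stb.sp, h, he]; simp
  · refine Or.inr ⟨h, fun t => fixE6 hK h3 ?_⟩
    have h1 : (stbE6 φ).π ((stbE6 φ).π j) = j := (by decide +kernel : ∀ j, symE6.ν (symE6.ν j) = j) j
    rw [map_mul, Stb.σ_x, Stb.σ_x, Stb.rev, Stb.rev, Stb.sp, Stb.sp, h1, he, he, Units.val_one, one_mul, one_mul]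
    rw [show (stbE6 φ).f _ (φ t) = t from h3 t]
    have := (by decide +kernel : ∀ j, symE6.ν j ≠ j → (certE6.sp j).rev ≠ (certE6.sp (symE6.ν j)).rev.rev ∧
      certE6.N (certE6.sp (symE6.ν j)).rev (certE6.sp j).rev = 0) j h
    exact Sys.commute_of_N _ this.1 this.2 _ _

end Cfsg.Agent.Tw
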