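import Cfsg.Agent.Tw.Rank
import Cfsg.Agent.Chev.ReflG2

/-! Involution class data, G2. -/

set_option autoImplicit false

namespace Cfsg.Agent.Tw

open Cfsg.Lie Cfsg.Agent.Chev

variable {F : Type*} [Field F] {G : Type*} [Group G] {S : Sys certG2 F G}

/-- tables -/
def tabG2 : Tab where
  f := reflG2
  ρ r := r
  π r := r
  ow := [[0], [1]]
  l0 := [0, 1, 0, 1, 0, 1]
  ref := true

theorem l0G2 : tabG2.okL chevG2 (2 ^ chevG2.rank - 1) tabG2.l0 = true := by decide +kernel

/-- canonical words -/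
def csG2 : List (List (List ℕ × ℕ)) := [[], [([], 1), ([0, 1], 0)], [([], 1)], [([], 0)]]

/-- data for the sets of nodes -/
def dJG2 : List (List ℕ × ℕ × List ℕ) := [([], 1, []), ([0], 2, [1, 0]), ([1], 3, [0, 1]), ([0, 1, 0, 1, 0, 1], 0, [])]

/-- representatives -/
def repsG2 : List (List ℕ) := [[11], [9]]

/-- reductions -/
def rdG2 : List (ℕ × List (Bool × List ℕ)) := [(0, []), (1, [(false, [0]), (true, [7, 6]), (false, [0])]), (0, [(false, [1, 0])]), (1, [(false, [0, 1])])]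

theorem okCG2 : csG2.all (tabG2.okC chevG2) = true := by decide +kernel

theorem okJG2 : allLt (2 ^ chevG2.rank) (fun n => tabG2.okJ chevG2 csG2 n (dJG2.getD n ([], 0, []))) = true := by
  decide +kernel

theorem okRG2 : tabG2.okR chevG2 csG2 repsG2 rdG2 = true := by decide +kernel

theorem rkG2_0 [CharP F 2] {T : Stb S} {K : Subgroup G} (h : tabG2.Fit T K) :
    rk S (pw S [11]) = 6 :=
  h.rk_eq (c := csG2.getD 2 []) (by decide +kernel) (k := 1) (B := [[0], [1]]) (B' := [[1, 0]]) (L := [[0, 1]]) (R := [[1], [0]])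
    (by decide +kernel) (M := (rdG2.getD 2 (0, [])).2) (by decide +kernel)

theorem rkG2_1 [CharP F 2] {T : Stb S} {K : Subgroup G} (h : tabG2.Fit T K) :
    rk S (pw S [9]) = 6 :=
  h.rk_eq (c := csG2.getD 3 []) (by decide +kernel) (k := 1) (B := [[1], [0]]) (B' := [[0, 1]]) (L := [[1, 0]]) (R := [[0], [1]])
    (by decide +kernel) (M := (rdG2.getD 3 (0, [])).2) (by decide +kernel)

theorem fitG2 : tabG2.Fit (Stb.one S) ⊤ :=
  ⟨Stb.good_one, ssG2, fun _ => rfl, fun _ => rfl, fun _ => rfl, fun _ _ => trivial, l0G2, fun _ => Stb.sep_one⟩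

end Cfsg.Agent.Tw
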