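import Cfsg.Agent.Tw.Rank
import Cfsg.Agent.Chev.ReflD4
import Cfsg.Agent.Tw.InvTw

/-! Involution class data, TD4. -/

set_option autoImplicit false

namespace Cfsg.Agent.Tw

open Cfsg.Lie Cfsg.Agent.Chev

variable {F : Type*} [Field F] {G : Type*} [Group G] {S : Sys certD4 F G}

/-- tables -/
def tabTD4 : Tab where
  f := reflD4
  ρ r := [0, 1, 6, 2, 7, 10, 3, 8, 4, 9, 11, 5, 18, 12, 14, 19, 15, 20, 13, 16, 21, 17, 22, 23].getD r 0
  π r := [2, 1, 3, 0].getD r 0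
  ow := [[1], [0, 2, 3]]
  l0 := [0, 1, 0, 2, 1, 0, 3, 1, 0, 2, 1, 3]
  ref := false

theorem l0TD4 : tabTD4.okL chevD4 (2 ^ chevD4.rank - 1) tabTD4.l0 = true := by decide +kernel

/-- canonical words -/
def csTD4 : List (List (List ℕ × ℕ)) := [[], [([], 3), ([], 2), ([], 0), ([1, 0, 2, 1], 3)], [([], 3), ([], 2), ([], 0)], [([], 1)]]

/-- data for the sets of nodes -/
def dJTD4 : List (List ℕ × ℕ × List ℕ) := [([], 1, []), ([], 0, []), ([1], 2, [1, 0]), ([], 0, []), ([], 0, []), ([], 0, []), ([], 0, []), ([], 0, []), ([], 0, []), ([], 0, []), ([], 0, []), ([], 0, []), ([], 0, []), ([0, 2, 3], 3, [0, 1]), ([], 0, []), ([0, 1, 0, 2, 1, 0, 3, 1, 0, 2, 1, 3], 0, [])]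

/-- representatives -/
def repsTD4 : List (List ℕ) := [[14], [12, 13, 18]]

/-- reductions -/
def rdTD4 : List (ℕ × List (Bool × List ℕ)) := [(0, []), (1, [(true, [17, 20, 21, 15, 16, 19])]), (1, []), (0, [])]

theorem okCTD4 : csTD4.all (tabTD4.okC chevD4) = true := by decide +kernel

theorem okJTD4 : allLt (2 ^ chevD4.rank) (fun n => tabTD4.okJ chevD4 csTD4 n (dJTD4.getD n ([], 0, []))) = true := by
  decide +kernel

theorem okRTD4 : tabTD4.okR chevD4 csTD4 repsTD4 rdTD4 = true := by decide +kernel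

theorem rkTD4_0 [CharP F 2] {T : Stb S} {K : Subgroup G} (h : tabTD4.Fit T K) :
    rk S (pw S [14]) = 10 :=
  h.rk_eq (c := csTD4.getD 3 []) (by decide +kernel) (k := 1) (B := [[0], [1], [0], [0]]) (B' := [[1, 0, 1, 1]]) (L := [[0, 1, 0, 0]]) (R := [[1], [0], [0], [0]])
    (by decide +kernel) (M := (rdTD4.getD 3 (0, [])).2) (by decide +kernel)

theorem rkTD4_1 [CharP F 2] {T : Stb S} {K : Subgroup G} (h : tabTD4.Fit T K) :
    rk S (pw S [12, 13, 18]) = 12 :=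
  h.rk_eq (c := csTD4.getD 2 []) (by decide +kernel) (k := 1) (B := [[1], [0], [1], [1]]) (B' := [[0, 1, 0, 0]]) (L := [[0, 0, 0, 1]]) (R := [[0], [1], [0], [0]])
    (by decide +kernel) (M := (rdTD4.getD 2 (0, [])).2) (by decide +kernel)

theorem fitTD4 [CharP F 2] {φ : F ≃+* F} {K : Subgroup (chevD4.group F)} (hK : (stbD4 φ).Good K)
    (h3 : ∀ t, φ (φ (φ t)) = t) : tabTD4.Fit (stbD4 φ) K := by
  refine ⟨hK, ssD4, triD4.e_two _ _, by change ∀ r, (triD4.ρ r : ℕ) = _; decide +kernel,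
    by change ∀ r, (triD4.ν r : ℕ) = _; decide +kernel, fun l hl => fixD4 hK h3 (Stb.σ_nW (certD4.sys_φ_inj F)
      (triD4.e_two _ _) ssD4 ?_), l0TD4, fun h => absurd h (by decide)⟩
  revert l; change ∀ l ∈ _, sameW _ _ _ (List.map _ (List.map triD4.ν _)) _ = true; decide +kernel

end Cfsg.Agent.Tw
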