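import Cfsg.Agent.Tw.InvTF4

/-! Involutions of the Tits group. -/

set_option autoImplicit false

namespace Cfsg.Agent.Tw

open Cfsg.Lie Cfsg.Agent.Chev
open scoped commutatorElement

theorem ncard_classes_commutator {H : Type*} [Group H] {n : ℕ} (y : Fin n → H) (h0 : ∀ i, y i ∈ commutator H)
    (h1 : ∀ i, orderOf (y i) = 2) (h2 : ∀ t : H, orderOf t = 2 → ∃ i, IsConj t (y i))
    (h3 : ∀ i j, IsConj (y i) (y j) → i = j) (h4 : ∀ i, commutator H ⊔ Subgroup.centralizer {y i} = ⊤) :
    (ConjClasses.mk '' {g : commutator H | orderOf g = 2}).ncard = n := by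
  refine ncard_classes (fun i => ⟨y i, h0 i⟩) (fun i => by rw [← Subgroup.orderOf_coe, h1]) (fun t ht => ?_)
    fun i j h => h3 i j ((commutator H).subtype.map_isConj h)
  obtain ⟨i, hi⟩ := h2 t (by rw [Subgroup.orderOf_coe, ht])
  obtain ⟨g, e⟩ := isConj_iff.1 hi.symm
  obtain ⟨a, ha, c, hc, rfl⟩ := Subgroup.mem_sup_of_normal_left.1 (h4 i ▸ Subgroup.mem_top g)
  refine ⟨i, (isConj_iff.2 ⟨⟨a, ha⟩, Subtype.ext ?_⟩).symm⟩
  rw [← e, Subgroup.mem_centralizer_singleton_iff] at *
  simp [mul_assoc, ← e, hc]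

/-- commutator subgroups of isomorphic groups -/
noncomputable def commEquiv {A B : Type*} [Group A] [Group B] (e : A ≃* B) : commutator A ≃* commutator B :=
  (e.subgroupMap _).trans (MulEquiv.subgroupCongr (by
    rw [map_commutator_eq, MonoidHom.range_eq_top.2 e.surjective, commutator_def]))

section
variable {F : Type*} [Field F] [Finite F] [CharP F 2] {φ : F ≃+* F} {KT : Subgroup (chevF4.group F)}
  (fitT : tabTF4.Fit (stbF4 φ) KT)

/-- representatives -/
noncomputable def yT (i : Fin 2) : KT :=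
  ⟨pw (certF4.sys F) ([[47, 44], [39, 45]].getD i []), fitT.okZ_mem (by revert i; decide +kernel)⟩

theorem yT_mem (i : Fin 2) : yT fitT i ∈ commutator KT := by
  have key : ∀ a b, tabTF4.okZ chevF4 a = true → tabTF4.okZ chevF4 b = true →
      eqW chevF4 (a ++ b ++ a.reverse ++ b.reverse) ([[47, 44], [39, 45]].getD i []) = true → yT fitT i ∈ commutator KT := by
    intro a b ha hb h
    have := eqW_sound (S := certF4.sys F) h
    simp only [pw_append, pw_reverse] at this
    rw [show yT fitT i = ⁅(⟨_, fitT.okZ_mem ha⟩ : KT), (⟨_, fitT.okZ_mem hb⟩ : KT)⁆ from Subtype.ext this.symm]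
    exact Subgroup.commutator_mem_commutator (Subgroup.mem_top _) (Subgroup.mem_top _)
  fin_cases i
  · exact key [24, 33] [40, 46] (by decide +kernel) (by decide +kernel) (by decide +kernel)
  · exact key [29, 41, 44] [31, 35, 40] (by decide +kernel) (by decide +kernel) (by decide +kernel)

theorem yT_conj (t : KT) (h : orderOf t = 2) : ∃ i, IsConj t (yT fitT i) := by
  obtain ⟨i, g, hg, e⟩ := invTF4 fitT t.2 (by rw [← pow_two, ← h, ← Subgroup.orderOf_coe, pow_orderOf_eq_one])
    (fun e => by rw [show t = 1 from Subtype.ext e] at h; simp at h)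
  exact ⟨i, isConj_iff.2 ⟨⟨g, hg⟩, Subtype.ext e⟩⟩

include fitT in
theorem invol_mem_comm (t : KT) (h : orderOf t = 2) : t ∈ commutator KT := by
  obtain ⟨i, hi⟩ := yT_conj fitT t h
  obtain ⟨g, rfl⟩ := isConj_iff.1 hi.symm
  exact Subgroup.Normal.conj_mem inferInstance _ (yT_mem fitT i) g

theorem yT_sup (hK : KT = gen (certF4.sys F) (f4Words F 1)) (h3 : ∀ t : F, t = 0 ∨ t = 1) (i : Fin 2) : commutator KT ⊔ Subgroup.centralizer {yT fitT i} = ⊤ := by
  set M := (commutator KT ⊔ Subgroup.centralizer {yT fitT i}).map KT.subtype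
  set S := certF4.sys F
  have a : ∀ g ∈ KT, g * g = 1 → g ∈ M := fun g hg h => ⟨⟨g, hg⟩, Subgroup.mem_sup_left (by
    by_cases h1 : (⟨g, hg⟩ : KT) = 1
    · rw [h1]; exact one_mem _
    · exact invol_mem_comm fitT _ (orderOf_eq_prime (Subtype.ext (by simpa [pow_two] using h)) h1)), rfl⟩
  have b : ∀ l y, Tab.nds chevF4 (tabTF4.ex l) = true → (∀ r ∈ y, r < chevF4.nroots) → (pw S y ∈ M ↔
      pw S (y.map (actN tabTF4.f (tabTF4.ex l))) ∈ M) := fun l y h1 h2 => by
    have c : ∀ g ∈ KT, ∀ m ∈ M, g * m * g⁻¹ ∈ M := by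
      rintro g hg _ ⟨m, hm, rfl⟩
      refine ⟨_, mul_mem (Subgroup.mem_sup_left (Subgroup.commutator_mem_commutator (Subgroup.mem_top ⟨g, hg⟩)
        (Subgroup.mem_top m))) hm, ?_⟩
      simp [commutatorElement_def]
    rw [← (pure_nW (tabTF4.ex l)).conj_pw (fitT.act (Tab.nds_spec h1)) h2]
    exact ⟨c _ (fitT.ex_mem l) _, fun h => by simpa [mul_assoc, S] using c _ (inv_mem (fitT.ex_mem l)) _ h⟩
  have c : ∀ z, tabTF4.okZ chevF4 z = true → eqW chevF4 (z ++ [[47, 44], [39, 45]].getD i [])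
      ([[47, 44], [39, 45]].getD i [] ++ z) = true → pw S z ∈ M := fun z h1 h2 =>
    ⟨⟨_, fitT.okZ_mem h1⟩, Subgroup.mem_sup_right (Subgroup.mem_centralizer_singleton_iff.2 (Subtype.ext (by
      have := eqW_sound (S := S) h2
      rw [pw_append, pw_append] at this
      exact this))), rfl⟩
  have d1 : pw S [27, 25, 28] ∈ M := by
    fin_cases i
    · exact c _ (by decide +kernel) (by decide +kernel)
    · exact (b [1, 0] _ (by decide +kernel) (by decide)).2 (c _ (by decide +kernel) (by decide +kernel))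
  have d2 : pw S [28, 30] ∈ M := a _ (fitT.okZ_mem (by decide +kernel))
    (by rw [← pw_append, eqW_sound (b := []) (by decide +kernel), pw_nil])
  have d3 : pw S [33, 24] ∈ M := a _ (fitT.okZ_mem (by decide +kernel))
    (by rw [← pw_append, eqW_sound (b := []) (by decide +kernel), pw_nil])
  have d4 : pw S [27, 25, 30] ∈ M := by
    rw [eqW_sound (b := [27, 25, 28] ++ [28, 30]) (by decide +kernel), pw_append]; exact mul_mem d1 d2
  have e : ∀ y y', (∀ r ∈ y, r < chevF4.nroots) ∧ y.map (actN tabTF4.f (tabTF4.ex [0, 1, 0, 1, 0, 1, 0, 1])) = y' →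
      pw S y ∈ M → pw S y' ∈ M := fun y y' h h1 => h.2 ▸ (b _ y (by decide +kernel) h.1).1 h1
  have e1 := e _ [20, 22, 19] (by decide +kernel) d1
  have e2 := e _ [19, 17] (by decide +kernel) d2
  have e3 := e _ [14, 23] (by decide +kernel) d3
  have e4 := e _ [20, 22, 17] (by decide +kernel) d4
  have f : KT ≤ M := hK.trans_le ((gen_le S).2 (by
    have h1 : ∀ r, xn S r = xi S r 1 := fun _ => rfl
    have h2 : (1 + 1 : F) = 0 := CharTwo.add_self_eq_zero 1
    simp only [pw_cons, pw_nil, h1] at d1 d2 d3 d4 e1 e2 e3 e4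
    rintro w (⟨t, rfl | rfl⟩ | ⟨t, u, rfl | rfl⟩) <;> rcases h3 t with rfl | rfl <;> try rcases h3 u with rfl | rfl
    all_goals
      simp only [f4PairWord, b2ClassWord, wd_cons, wd_nil, f4p1, f4p4, f4m1, f4m4, f4a, f4b, f4ab, f4aab, f4ma, f4mb,
        f4mab, f4maab, one_pow, pow_one, zero_pow two_ne_zero, mul_one, Nat.reduceAdd, add_zero, zero_add, h2, xi_zero,
        one_mul] at * <;> first | with_reducible assumption | exact one_mem _))
  rw [eq_top_iff]
  intro g _
  obtain ⟨m, hm, e⟩ := f g.2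
  exact (Subtype.ext e : m = g) ▸ hm

include fitT in
theorem tits_classes' (hK : KT = gen (certF4.sys F) (f4Words F 1)) (h3 : ∀ t : F, t = 0 ∨ t = 1) :
    (ConjClasses.mk '' {g : commutator KT | orderOf g = 2}).ncard = 2 :=
  ncard_classes_commutator (yT fitT) (yT_mem fitT) (fun i => by rw [← Subgroup.orderOf_coe]; exact orderTF4 i)
    (yT_conj fitT) (fun i j h => by
      obtain ⟨g, e⟩ := isConj_iff.1 h
      exact rkTF4 i j ((rk_conj (g : chevF4.group F) _).symm.trans (congrArg (rk _) (congrArg Subtype.val e))))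
    (yT_sup fitT hK h3)

end

theorem tits_gen (F : Type*) [Field F] [Finite F] [CharP F 2] (h3 : ∀ t : F, t = 0 ∨ t = 1) :
    (ConjClasses.mk '' {g : commutator (twistedF4 F 1) | orderOf g = 2}).ncard = 2 ∧
      ∀ g : twistedF4 F 1, orderOf g = 2 → g ∈ commutator (twistedF4 F 1) := by
  have hf : tabTF4.Fit (stbF4 (RingEquiv.refl F)) (gen (certF4.sys F) (f4Words F 1)) :=
    fitTF4 (goodF4 (by simp) fun t => by rcases h3 t with rfl | rfl <;> simp)
  refine ⟨(ncard_classes_congr (commEquiv (genEquiv certF4 (f4Words F 1)))).symm.trans (tits_classes' hf rfl h3),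
    fun g hg => ?_⟩
  obtain ⟨g, rfl⟩ := (genEquiv certF4 (f4Words F 1)).surjective g
  exact (commEquiv (genEquiv certF4 (f4Words F 1)) ⟨g, invol_mem_comm hf g ((MulEquiv.orderOf_eq (genEquiv certF4 (f4Words F 1)) g).symm.trans hg)⟩).2

end Cfsg.Agent.Tw
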