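import Cfsg.Agent.Tw.TE6
import Cfsg.Agent.Tw.Eqv
import Cfsg.Agent.Lang.Cyc

/-! Elements of order 5 in `²E₆(2)`. -/

set_option autoImplicit false
set_option linter.unusedSectionVars false

namespace Cfsg.Agent.Tw

open Cfsg.Lie Cfsg.Lie.ChevalleyDatum Cfsg.Agent.Chev Cfsg.Agent.Lang Cfsg.Agent.RGD Equiv Subgroup

/-- the lattice spanned by the two end nodes -/
def endL : AddSubgroup (Nd chevE6 → ℤ) where
  carrier := {x | ∀ j : Nd chevE6, (j : ℕ) ≠ 0 → (j : ℕ) ≠ 5 → x j = 0}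
  zero_mem' _ _ _ := rfl
  add_mem' hx hy j h h' := by rw [Pi.add_apply, hx j h h', hy j h h', add_zero]
  neg_mem' hx j h h' := by rw [Pi.neg_apply, hx j h h', neg_zero]

theorem mem_endL {r : Rt chevE6} : certE6.rc r ∈ endL ↔ (r : ℕ) ∈ [56, 15, 36, 35] :=
  (by decide +kernel : ∀ r : Rt chevE6, (∀ j : Nd chevE6, (j : ℕ) ≠ 0 → (j : ℕ) ≠ 5 → rcE6 r j = 0) ↔
    (r : ℕ) ∈ [56, 15, 36, 35]) r

theorem root_A3 : ∀ r : Rt chevE6, (5 : ℤ) ∣ vZ r → symE6.ρ r = r ∧ ((15 : ℕ) : ℤ) ∣ vZ r ∧ (∃ s, rA3 s = r) ∧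
    ∀ s : Rt chevE6, (s : ℕ) ∈ [56, 15, 36, 35] → r ≠ s.rev ∧ certE6.N s r = 0 := by decide +kernel

variable {k : Type*} [Field k] [CharP k 2] [IsAlgClosed k] {ψ : k ≃+* k} (hψ : ∀ t, ψ t = t ^ 2) (hk : FrobAlg k 2)
  {ξ : kˣ} (hξ : IsPrimitiveRoot ξ 5) {a g : chevE6.group k} (ha : ZE ξ a) (hg : g ∈ (certE6.sys k).U (Ps certE6 endL))

include hξ ha in
theorem ker5 {r : Rt chevE6} : certE6.rc r ∈ kerL (certE6.sys k) a ↔ (5 : ℤ) ∣ vZ r := by
  rw [rc_mem_kerL ha.1, ha.chi, hξ.zpow_eq_one_iff_dvd]; rfl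

include hg in
theorem commZ0 {b : kˣ} {z : chevE6.group k} (hz : ZE b z) (hb : b ^ 3 = 1) : Commute g z :=
  commute_of_chi hz.1 (fun r hr => hz.chi_eq_one hb ((by decide +kernel :
    ∀ r : Rt chevE6, (r : ℕ) ∈ [56, 15, 36, 35] → ((3 : ℕ) : ℤ) ∣ vZ r) r (mem_endL.1 hr))) hg

include hg in
theorem commZ {b : kˣ} {z h : chevE6.group k} (hz : ZE b z) (hb : b ^ 3 = 1) (hh : h ∈ (certE6.sys k).H) :
    Commute z (g * h * g⁻¹) :=
  have h1 := (commZ0 hg hz hb).symm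
  (h1.mul_right ((certE6.sys k).H_comm (certE6.sys_φ_inj k) hz.1 hh)).mul_right h1.inv_right

include hξ ha hg in
theorem commA {r : Rt chevE6} (hr : certE6.rc r ∈ kerL (certE6.sys k) a) (t : k) : Commute g ((certE6.sys k).x r t) :=
  (certE6.sys k).commute_of_mem_U (fun s hs _ =>
    have := (root_A3 r ((ker5 hξ ha).1 hr)).2.2.2 s (mem_endL.1 hs)
    (certE6.sys k).commute_of_N this.1 this.2 _ _) hg

include hξ ha hg in
theorem commY {b : kˣ} {h y : chevE6.group k} (hh : ZE b h) (hb : b ^ 15 = 1)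
    (hy : y ∈ subL (certE6.sys k) (kerL (certE6.sys k) a) {1}) : Commute y g ∧ Commute y h := by
  have key : ∀ z, (∀ r, certE6.rc r ∈ kerL (certE6.sys k) a → (certE6.sys k).x r 1 * z = z * (certE6.sys k).x r 1) →
      Commute y z := fun z hz => mem_centralizer_singleton_iff.1 (subL_le (K := centralizer {z})
    (fun r hr t ht => by rw [ht]; exact mem_centralizer_singleton_iff.2 (hz r hr)) hy)
  refine ⟨key g fun r hr => (commA hξ ha hg hr 1).eq.symm, key h fun r hr => ?_⟩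
  rw [mul_inv_eq_iff_eq_mul.1 (Sys.H_conj_x hh.1 r 1), hh.chi_eq_one hb (root_A3 r ((ker5 hξ ha).1 hr)).2.1,
    Units.val_one, one_mul]

include hξ ha in
theorem ZE.orderOf : orderOf a = 5 := by
  have : Fact (Nat.Prime 5) := ⟨by norm_num⟩
  refine orderOf_eq_prime ((hξ.pow_eq_one ▸ ha.pow 5).unique ZE.one) fun e => hξ.ne_one (by norm_num) ?_
  simpa [e, Sys.chi_one, eZ] using (ha.2 ⟨2, by decide⟩).symm

include hψ hξ ha hg in
/-- the centraliser among all fixed points -/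
theorem cent5 (hL : (stbE6 ψ).LP g (certE6.ss ⟨0, by decide⟩)) {c : chevE6.group k} (hc : (stbE6 ψ).σ c = c)
    (e : c * (g * a * g⁻¹) = g * a * g⁻¹ * c) : ∃ y ∈ subL (certE6.sys k) (kerL (certE6.sys k) a) {1}, ∃ i : ℕ,
      ∃ b z, b ^ 3 = 1 ∧ ZE b z ∧ c = y * (g * a * g⁻¹) ^ i * z := by
  have h0 : ∀ r, certE6.rc r ∈ endL → certE6.rc ((stbE6 ψ).ρ r) ∈ endL := fun r hr => mem_endL.2
    ((by decide +kernel : ∀ r : Rt chevE6, (r : ℕ) ∈ [56, 15, 36, 35] → (symE6.ρ r : ℕ) ∈ [56, 15, 36, 35]) r (mem_endL.1 hr))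
  have h1 := mul_mem (inv_mem hg) ((stbE6 ψ).σ_U (B := Ps certE6 endL) h0 hg)
  obtain ⟨y, hy, h, hh, h2, y', hy', h3⟩ := fix_GS_two
    (σ := (MulAut.conj (g⁻¹ * (stbE6 ψ).σ g)).toMonoidHom.comp (stbE6 ψ).σ.toMonoidHom) (c := g⁻¹ * c * g)
    (fun r hr t => by
      change _ * (stbE6 ψ).σ _ * _ = _
      rw [σx_E6 hψ, (root_A3 r ((ker5 hξ ha).1 hr)).1, (commA hξ ha h1 hr _).eq, mul_inv_cancel_right])
    (fun a ha => (certE6.sys k).N_conj_H hL.mem_N ((stbE6 ψ).σ_H ha))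
    (mem_GS_of_coprime (n := 5) (by decide) (by decide) ha.1 (ha.orderOf hξ ▸ pow_orderOf_eq_one a) (by
      calc _ = g⁻¹ * (c * (g * a * g⁻¹)) * g := by group
        _ = _ := by rw [e]; group)) (by simp [hc, mul_assoc])
  obtain ⟨b, hb, h4⟩ := exists_ZE_of_TH hψ ((Stb.mem_TH_iff (certE6.sys_φ_inj k) hL hh).2 h2)
  obtain ⟨i, -, hi⟩ := hξ.eq_pow_of_mem_rootsOfUnity (ξ := b ^ 6) (by
    rw [mem_rootsOfUnity, ← pow_mul, show 6 * 5 = 15 * 2 from rfl, pow_mul, hb, one_pow])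
  have h5 : (b ^ 10) ^ 3 = 1 := by rw [← pow_mul, show 10 * 3 = 15 * 2 from rfl, pow_mul, hb, one_pow]
  have h6 : h = a ^ i * h ^ 10 := by
    rw [(ha.pow i).unique (hi ▸ h4.pow 6), ← pow_add]
    exact h4.unique (by simpa [pow_succ b 15, hb] using h4.pow 16)
  refine ⟨_, mul_mem hy hy', i, _, _, h5, h4.pow 10, ?_⟩
  calc c = g * (y * h * y') * g⁻¹ := by rw [← h3]; group
    _ = g * (y * y') * (a ^ i * h ^ 10) * g⁻¹ := by rw [← h6, mul_assoc y, ← (commY hξ ha hg h4 hb hy').2.eq]; group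
    _ = _ := by rw [← (commY hξ ha hg h4 hb (mul_mem hy hy')).1.eq, conj_pow, mul_assoc, mul_assoc (a ^ i),
      ← (commZ0 hg (h4.pow 10) h5).inv_left.eq]; group

theorem nonempty_cent_conj {G H : Type*} [Group G] [Group H] {x y : G} (h : IsConj x y)
    (e : Nonempty (centralizer {x} ≃* H)) : Nonempty (centralizer {y} ≃* H) := by
  obtain ⟨c, rfl⟩ := isConj_iff.1 h
  refine ⟨((MulEquiv.subgroupCongr ?_).trans ((MulAut.conj c).subgroupMap (centralizer {x})).symm).trans e.some⟩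
  ext z
  refine Iff.trans ?_ mem_map_equiv.symm
  rw [mem_centralizer_singleton_iff, mem_centralizer_singleton_iff, ← (MulAut.conj c).injective.eq_iff (a := _ * x)]
  simp [mul_assoc]

theorem five_te6 (F : Type*) [Field F] [Fintype F] (hF : Fintype.card F = 4) : ∃ x₀ : twistedE6 F 2,
    (∀ x, orderOf x = 5 → IsConj x₀ x) ∧
      Nonempty (centralizer {x₀} ≃* Multiplicative (ZMod 5) × alternatingGroup (Fin 8)) := by
  have : CharP F 2 := charP_of_card_eq_prime_pow (f := 2) hF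
  have h : Nat.card F = 2 ^ 2 := by rw [Nat.card_eq_fintype_card, hF]; rfl
  obtain ⟨φ, hφ⟩ := exists_frob F h
  let k := AlgebraicClosure F
  have : CharP k 2 := charP_of_injective_algebraMap (algebraMap F _).injective 2
  obtain ⟨ψ, hψ⟩ : ∃ ψ : k ≃+* k, ∀ t, ψ t = t ^ 2 := ⟨frobeniusEquiv k 2, fun _ => rfl⟩
  have hi := certE6.sys_φ_inj k
  have hk : FrobAlg k 2 := frobAlg_of_isAlgebraic F
  have hσ : IsStein certE6 2 (stbE6 ψ).σ.toMonoidHom := ⟨2, 2, two_pos, two_pos, iter_E6 hψ⟩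
  have hK := goodE6 hφ (frob2 hφ h)
  obtain ⟨ι, hι, hR⟩ : ∃ ι : twistedE6 F 2 →* chevE6.group k, Function.Injective ι ∧
      ∀ g, g ∈ ι.range ↔ (stbE6 ψ).σ g = g ∧ g ∈ (io certE6 k F).range :=
    ⟨(io certE6 k F).comp ((Subgroup.subtype _).comp (eqE6 F 2).symm.toMonoidHom),
      (io_inj certE6 F).comp (Subtype.val_injective.comp (eqE6 F _).symm.injective), fun g => ⟨by
        rintro ⟨x, rfl⟩
        exact ⟨(io_E6 hψ hφ _).trans (congrArg _ (hK.fix _ ((eqE6 F _).symm x).2)), _, rfl⟩, by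
        rintro ⟨h1, x, rfl⟩
        exact ⟨eqE6 F _ ⟨x, fixE6 hK (frob2 hφ h) (io_inj certE6 F ((io_E6 hψ hφ x).symm.trans h1))⟩, by simp⟩⟩⟩
  have dec : ∀ c, (stbE6 ψ).σ c = c → ∃ b z, b ^ 3 = 1 ∧ ZE b z ∧ z⁻¹ * c ∈ ι.range := fun c hc => by
    obtain ⟨a, h1, h2, h3⟩ := hK.fix_decomp h (io_E6 hψ hφ) rfl (iter_E6 hψ) hc
    obtain ⟨b, z, h4, h5, h6⟩ := exists_ZE_of_fix hψ h h1 h2
    exact ⟨b, z, h4, h5, (hR _).2 ⟨by rw [map_mul, map_inv, h5.fix hψ h4, hc], by simpa [mul_assoc] using mul_mem h6 h3⟩⟩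
  obtain ⟨g, hg, hL⟩ := Stb.exists_LP_U hk hσ (L := endL) (fun r hr => mem_endL.2 ((by decide +kernel :
    ∀ r : Rt chevE6, (r : ℕ) ∈ [56, 15, 36, 35] → (symE6.ρ r : ℕ) ∈ [56, 15, 36, 35]) r (mem_endL.1 hr)))
    (sr_mem_WL (r := certE6.sp ⟨0, by decide⟩) (mem_endL.2 (by decide)))
  obtain ⟨ξ, hξ⟩ := exists_unit_root (k := k) 2 (N := 5) (by decide)
  obtain ⟨a, ha⟩ := exists_ZE ξ
  have h15 : ξ ^ 15 = 1 := by rw [show 15 = 5 * 3 from rfl, pow_mul, hξ.pow_eq_one, one_pow]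
  have h5 : a ^ 5 = 1 := ha.orderOf hξ ▸ pow_orderOf_eq_one a
  have h1 := (hL.fix_iff hi ha.1).2 (ha.mem_TH hψ h15)
  obtain ⟨x₀, hx⟩ : g * a * g⁻¹ ∈ ι.range := by
    obtain ⟨b, z, h2, h3, h4⟩ := dec _ h1
    convert pow_mem h4 6 using 1
    rw [(commZ hg h3 h2 ha.1).inv_left.mul_pow, inv_pow, show 6 = 3 * 2 from rfl, pow_mul,
      (h3.pow 3).unique (h2 ▸ ZE.one), conj_pow, pow_succ a 5, h5]
    simp
  refine ⟨x₀, fun x h2 => ?_, ?_⟩
  · have h3 := ((hR _).1 ⟨x, rfl⟩).1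
    have h4 : ι x ^ 5 = 1 := by rw [← map_pow, ← h2, pow_orderOf_eq_one, map_one]
    obtain ⟨y, w, -, h6⟩ := Stb.exists_TH hk hσ (n := 5) (by decide) h4 h3
    obtain ⟨m, hm⟩ := conj_five hξ ha.1 (fun i => by
      rw [ha.2, pow_eq_pow_mod _ hξ.pow_eq_one]; congr 1; revert i; decide) h6.1
      (by simpa [h4] using conj_pow (i := 5) (a := y⁻¹) (b := ι x)) (fun e => by
        have : x = 1 := hι (by simpa [mul_assoc, mul_eq_one_iff_eq_inv', eq_inv_mul_iff_mul_eq] using e)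
        simp [this] at h2) (π := w * (stbE6 ψ).ρ) fun r => (h6.2 r).trans (fuE6 hψ _ _)
    have h7 : ι x = y * m * a * (y * m)⁻¹ := by rw [mul_assoc y, mul_inv_rev, ← mul_assoc, mul_assoc y, ← hm]; group
    obtain ⟨c, h8, h9⟩ := Stb.exists_conj_conn' hk hσ ha.1 (fun g => mem_GS_of_coprime (n := 5) (by decide) (by decide)
      ha.1 h5) h1 (h7 ▸ h3)
    obtain ⟨b, z, h10, h11, u, hu⟩ := dec c⁻¹ (by rw [map_inv, h8])
    refine isConj_iff.2 ⟨u⁻¹, hι ?_⟩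
    rw [map_mul, map_mul, map_inv, map_inv, map_inv, hu, hx, h7, ← h9, mul_inv_rev, inv_inv, inv_inv,
      mul_assoc c, (commZ hg h11 h10 ha.1).eq]
    group
  obtain ⟨θ, hθ⟩ := exists_SL4 k
  obtain ⟨e⟩ := exists_a8_equiv
  have := alternatingGroup.isSimpleGroup (α := Fin 8) (by simp)
  have hY : (θ.comp e.toMonoidHom).range = subL (certE6.sys k) (kerL (certE6.sys k) a) {1} := by
    rw [MonoidHom.range_comp, MonoidHom.range_eq_top.2 e.surjective, ← slFam_top]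
    refine le_antisymm (map_le_iff_le_comap.2 (US_le fun r _ => Fam.X_le _ fun t => ?_)) (subL_le fun r hr t ht => ?_)
    · rw [mem_comap, hθ]
      rcases (by decide : ∀ t : ZMod 2, t = 0 ∨ t = 1) t with rfl | rfl
      · rw [map_zero, Sys.x_zero]; exact one_mem _
      · exact x_mem_subL ((ker5 hξ ha).2 (by revert r; decide +kernel)) (map_one _)
    · obtain ⟨s, rfl⟩ := (root_A3 r ((ker5 hξ ha).1 hr)).2.2.1
      exact ⟨_, le_US (Set.mem_univ s) (Fam.x_mem _ s 1), by rw [hθ, map_one, ht]⟩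
  have hθ' : Function.Injective (θ.comp e.toMonoidHom) := inj_of_simple _ (hY.ge (x_mem_subL (r := ⟨0, by decide⟩)
    ((ker5 hξ ha).2 (by decide +kernel)) rfl)) fun e => one_ne_zero ((certE6.sys k).x_eq_one_iff.1 e)
  generalize θ.comp e.toMonoidHom = η at hY hθ'
  have h2 : ∀ y ∈ η.range, Commute y (ι x₀) := fun y hy =>
    have := commY hξ ha hg ha h15 (hY.le hy)
    hx ▸ (this.1.mul_right this.2).mul_right this.1.inv_right
  have h3 : η.range ≤ ι.range := hY ▸ subL_le fun r hr t ht => (hR _).2 ⟨by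
    rw [σx_E6 hψ, (root_A3 r ((ker5 hξ ha).1 hr)).1, ht, one_pow], (certE6.sys F).x r 1, by
      rw [io, Cert.baseHom_x, map_one, ht]⟩
  have hc : ∀ (u : zpowers (ι x₀)) v, Commute ((zpowers (ι x₀)).subtype u) (η v) := by
    rintro ⟨_, i, rfl⟩ v
    exact (h2 _ ⟨v, rfl⟩).symm.zpow_left i
  have h4 : Function.Injective ((zpowers (ι x₀)).subtype.noncommCoprod η hc) := (injective_iff_map_eq_one _).2
    fun p hp => by
      have h4 : η p.2 = (p.1 : chevE6.group k)⁻¹ := eq_inv_of_mul_eq_one_right hp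
      have h6 : p.2 = 1 := mem_bot.1 ((alternatingGroup.center_eq_bot (by simp)).le (mem_center_iff.2 fun v =>
        hθ' (by rw [map_mul, map_mul, h4]; exact ((hc p.1 v).inv_left).symm)))
      exact Prod.ext (Subtype.ext (by simpa [h6] using h4.symm)) h6
  have h6 : (ι.comp (centralizer {x₀}).subtype).range = ((zpowers (ι x₀)).subtype.noncommCoprod η hc).range := by
    rw [MonoidHom.noncommCoprod_range, range_subtype, MonoidHom.range_comp, range_subtype]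
    refine le_antisymm ?_ (sup_le (zpowers_le.2 ⟨x₀, mem_centralizer_singleton_iff.2 rfl, rfl⟩) fun y hy => ?_)
    · rintro _ ⟨c, h6, rfl⟩
      obtain ⟨y, h7, i, b, z, h8, h9, h10⟩ := cent5 hψ hξ ha hg hL ((hR _).1 ⟨c, rfl⟩).1 (by
        rw [← hx, ← map_mul, ← map_mul, mem_centralizer_singleton_iff.1 h6])
      rw [← hx] at h10
      have h11 := mul_mem (h3 (hY.ge h7)) (pow_mem (MonoidHom.mem_range.2 ⟨x₀, rfl⟩) i)
      rw [h10, h9.eq_one h h8 ((hR _).1 ((mul_mem_cancel_left h11).1 (h10 ▸ ⟨c, rfl⟩))).2, mul_one]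
      exact mul_mem (mem_sup_right (hY.ge h7)) (mem_sup_left (pow_mem (mem_zpowers _) i))
    · obtain ⟨c, rfl⟩ := h3 hy
      exact ⟨c, mem_centralizer_singleton_iff.2 (hι (by rw [map_mul, map_mul, (h2 _ hy).eq])), rfl⟩
  have : Fact (Nat.Prime 5) := ⟨by norm_num⟩
  exact ⟨((MonoidHom.ofInjective (f := ι.comp (centralizer {x₀}).subtype) (hι.comp Subtype.val_injective)).trans ((MulEquiv.subgroupCongr h6).trans
    (MonoidHom.ofInjective h4).symm)).trans (MulEquiv.prodCongr (mulEquivOfPrimeCardEq (p := 5) (by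
      rw [Nat.card_zpowers, hx, ← MulAut.conj_apply, MulEquiv.orderOf_eq, ha.orderOf hξ]) (by simp)) (MulEquiv.refl _))⟩

end Cfsg.Agent.Tw
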