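import Cfsg.Agent.Tw.Ree5

/-! The trace of `²G₂` on the seven-dimensional module. -/

set_option autoImplicit false
set_option linter.unusedSectionVars false

namespace Cfsg.Agent.Tw

open Cfsg.Lie Cfsg.Agent.Chev Matrix

/-- upper unitriangular matrices -/
def UT {n : ℕ} {F : Type*} [Field F] (M : Matrix (Fin n) (Fin n) F) : Prop :=
  ∀ i j, j ≤ i → M i j = (1 : Matrix (Fin n) (Fin n) F) i j

theorem UT.mul {n : ℕ} {F : Type*} [Field F] {A B : Matrix (Fin n) (Fin n) F} (hA : UT A) (hB : UT B) : UT (A * B) := by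
  intro i j h
  rw [mul_apply, Finset.sum_eq_single i, hA i i le_rfl, hB i j h, one_apply_eq, one_mul]
  · intro k _ hk
    rcases lt_or_gt_of_ne hk with h1 | h1
    · rw [hA i k h1.le, one_apply_ne hk.symm, zero_mul]
    · rw [hB k j (h.trans h1.le), one_apply_ne (h.trans_lt h1).ne', mul_zero]
  · simp

variable {F : Type*} [Field F] [CharP F 3]

theorem ρS_x (r : Rt chevG2) (t : F) (i j : Fin 7) : isogG2.ρS F ((certG2.sys F).x r t) i j =
    (1 : Matrix (Fin 7) (Fin 7) F) i j + t * Xf chevG2 r 1 (eSG2 i) (eSG2 j) + t ^ 2 * Xf chevG2 r 2 (eSG2 i) (eSG2 j) +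
      t ^ 3 * Xf chevG2 r 3 (eSG2 i) (eSG2 j) :=
  (Isog.xR_apply r t _ _).trans (by rw [one_apply, one_apply]; simp only [isogG2.eS_inj.eq_iff]; rfl)

theorem ut_Up {u : chevG2.group F} (hu : u ∈ (certG2.sys F).Up) : UT (isogG2.ρS F u) := by
  refine (certG2.sys F).U_induction (P := fun u => UT (isogG2.ρS F u)) (fun i j _ => by rw [map_one]) (fun r hr t g _ h => ?_) hu
  rw [map_mul]
  refine UT.mul (fun i j h => ?_) h
  have := (by decide +kernel : ∀ r : Rt chevG2, chevG2.nroots ≤ 2 * r.val → ∀ i j : Fin 7, j ≤ i → Xf chevG2 r 1 (eSG2 i) (eSG2 j) = 0 ∧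
    Xf chevG2 r 2 (eSG2 i) (eSG2 j) = 0 ∧ Xf chevG2 r 3 (eSG2 i) (eSG2 j) = 0) r ((certG2.pos_iff_val r).1 hr) i j h
  simp [ρS_x, this]

theorem ρS_hz (x y : Fˣ) : isogG2.ρS F (hz x y) =
    diagonal ![(x * y ^ 2 : F), x * y, y, 1, (y : F)⁻¹, (x * y : F)⁻¹, (x * y ^ 2 : F)⁻¹] := by
  have h : ∀ (r : Rt chevG2) (i j : ℤ), rcG2 r 1 = i ∧ rcG2 r 0 = j →
      ((certG2.sys F).chi (hz x y) r : F) = (x : F) ^ i * (y : F) ^ j := fun r i j e => by
    rw [chiG2 (hz_mem _ _) i j e, cx_hz, cy_hz]; simp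
  ext i j
  rw [Isog.ρS_apply, ← certG2.sys_φ, Sys.φ_eq_dg (hz_mem _ _), Cert.dg, diagonal_apply, diagonal_apply]
  simp only [isogG2.eS_inj.eq_iff]
  split_ifs with e
  · fin_cases i
    · exact (h ⟨9, by decide⟩ 1 2 (by decide)).trans (by simp [zpow_ofNat])
    · exact (h ⟨8, by decide⟩ 1 1 (by decide)).trans (by simp)
    · exact (h ⟨7, by decide⟩ 0 1 (by decide)).trans (by simp)
    · rfl
    · exact (h ⟨4, by decide⟩ 0 (-1) (by decide)).trans (by simp)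
    · exact (h ⟨3, by decide⟩ (-1) (-1) (by decide)).trans (by simp [mul_comm])
    · exact (h ⟨2, by decide⟩ (-1) (-2) (by decide)).trans (by simp [zpow_ofNat, mul_comm])
  · rfl

/-- integral form of the central root elements -/
def zM (r : ℕ) (t : ℤ) : Matrix (Fin 7) (Fin 7) ℤ := of fun i j => (if i = j then 1 else 0) +
  t * Xf chevG2 r 1 (eSG2 i) (eSG2 j) + t ^ 2 * Xf chevG2 r 2 (eSG2 i) (eSG2 j) + t ^ 3 * Xf chevG2 r 3 (eSG2 i) (eSG2 j)

theorem ρS_zM {r : ℕ} (h : r < chevG2.nroots) (t : ℤ) :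
    isogG2.ρS F (xi (certG2.sys F) r t) = (Int.castRingHom F).mapMatrix (zM r t) := by
  ext i j
  simp [xi_eq _ h, ρS_x, zM, one_apply]

theorem ρS_z [PerfectRing F 3] (φ : F ≃+* F) :
    1 + isogG2.ρS F (XG φ 0 0 1) + isogG2.ρS F (XG φ 0 0 (-1)) = single 0 6 1 := by
  have h : ∀ t : ℤ, isogG2.ρS F (XG φ 0 0 t) = (Int.castRingHom F).mapMatrix (zM 9 t * zM 11 t) := fun t => by
    simp only [XG, wd_cons, wd_nil, map_zero, zero_mul, sub_zero, xi_zero, one_mul, mul_one, map_intCast, map_mul,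
      ρS_zM (r := 9) (by decide), ρS_zM (r := 11) (by decide)]
  have h1 := h 1
  have h2 := h (-1)
  push_cast at h1 h2
  rw [h1, h2, ← map_one (Int.castRingHom F).mapMatrix, ← map_add, ← map_add,
    show 1 + zM 9 1 * zM 11 1 + zM 9 (-1) * zM 11 (-1) = 3 * (1 - single 0 6 1) + single 0 6 1 by decide +kernel]
  have h3 : (3 : Matrix (Fin 7) (Fin 7) F) = 0 := CharP.cast_eq_zero _ 3
  rw [map_add, map_mul, map_ofNat, h3, zero_mul, zero_add]
  ext i j
  simp [single_apply]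

theorem ρS_n (hq : ∃ s : F, s ^ 3 ≠ s) {n : chevG2.group F} (h : ∀ a ∈ (certG2.sys F).H, n * a * n⁻¹ = a⁻¹) :
    isogG2.ρS F n 6 0 ≠ 0 := by
  obtain ⟨s, hs⟩ := hq
  have h0 : s ≠ 0 := by rintro rfl; simp at hs
  have h1 : ∀ x y : Fˣ, ∀ i : Fin 7, ![(x * y ^ 2 : F), x * y, y, 1, (y : F)⁻¹, (x * y : F)⁻¹, (x * y ^ 2 : F)⁻¹] i *
      (x * y ^ 2) ≠ 1 → isogG2.ρS F n i 0 = 0 := fun x y i e => by
    have := congrArg (fun g => isogG2.ρS F g i 0) (show hz x y * n * hz x y = n by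
      rw [mul_assoc, mul_inv_eq_iff_eq_mul.1 (h _ (hz_mem x y)), mul_inv_cancel_left])
    simp only [map_mul, ρS_hz, mul_diagonal, diagonal_mul, cons_val_zero] at this
    exact (mul_eq_zero.1 (by linear_combination this)).resolve_left (sub_ne_zero.2 e)
  have h4 : s ≠ 1 := fun e => hs (by rw [e, one_pow])
  have h5 : s * s ≠ 1 := fun e => hs (by rw [pow_three, e, mul_one])
  intro h6
  have h7 : ∀ i, isogG2.ρS F n i 0 = 0 := fun i => by
    fin_cases i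
    iterate 5 exact h1 (Units.mk0 s h0) 1 _ (by simpa)
    exacts [h1 1 (-1) _ (by simp; grind), h6]
  have := congrArg (fun g => isogG2.ρS F g 0 0) (inv_mul_cancel n)
  simp only [map_mul, mul_apply, h7, map_one] at this
  simp at this

theorem corner {A B N : Matrix (Fin 7) (Fin 7) F} (hA : UT A) (hB : UT B) (d : Fin 7 → F) :
    (A * diagonal d * N * B) 6 0 = d 6 * N 6 0 := by
  have h1 : ∀ M : Matrix (Fin 7) (Fin 7) F, (M * B) 6 0 = M 6 0 := fun M => by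
    simp [mul_apply, fun i => hB i 0 (Fin.zero_le i), one_apply]
  have h2 : ∀ M : Matrix (Fin 7) (Fin 7) F, (A * M) 6 0 = M 6 0 := fun M => by
    simp [mul_apply, fun i => hA 6 i (Fin.le_last i), one_apply]
  rw [h1, mul_assoc, h2, diagonal_mul]

/-- the BN-pair of a small Ree group together with a trace function -/
structure RTr (R : Type*) [Group R] (F : Type*) [Field F] extends RBN R F where
  /-- the trace -/
  tr : R → F
  /-- the corner entry -/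
  σ : Fˣ → F
  tr_comm : ∀ a b, tr (a * b) = tr (b * a)
  tr_U : ∀ u ∈ U, tr u = 1
  tr_J : ∀ u ∈ U, tr (u * h (-1)) = -1
  σ_ne : ∀ s, σ s ≠ 0
  σ_surj : ∀ k ≠ 0, ∃ s, σ s = k
  kap : ∀ u ∈ U, ∀ s, ∀ u' ∈ U, tr (u * h s * n * u') + tr (u * h s * n * u' * X 0 0 1) +
    tr (u * h s * n * u' * X 0 0 (-1)) = σ s

theorem exists_rtr {F : Type*} [Field F] [Finite F] {m : ℕ} (h : Nat.card F = 3 ^ (2 * m + 1)) [CharP F 3]
    (hq : ∃ s : F, s ^ 3 ≠ s) : Nonempty (RTr (twistedG2 F (3 ^ m)) F) := by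
  obtain ⟨φ, hφ⟩ : ∃ φ : F ≃+* F, ∀ t, φ t = t ^ 3 ^ m := ⟨iterateFrobeniusEquiv F 3 m, fun _ => rfl⟩
  have h3 := frobp hφ h
  have hK := goodG2 hφ h3
  have hf := fun g => fixG2 hφ h (g := g)
  obtain ⟨n, hn, hn'⟩ := hK.ex_w0
  let e := eqG2 F (3 ^ m)
  let j : twistedG2 F (3 ^ m) →* chevG2.group F := (Subgroup.subtype _).comp e.symm.toMonoidHom
  have hj : Function.Injective j := Subtype.val_injective.comp e.symm.injective
  have h1 : ∀ g hg, j (e ⟨g, hg⟩) = g := fun g hg => by simp [j]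
  have h2 : ∀ g, j g ∈ gen (certG2.sys F) (g2Words F (3 ^ m)) := fun g => (e.symm g).2
  have h4 := fun t v w => (mem_XG h3).2 ⟨t, v, w, rfl⟩
  have h5 := over_sq hn' w0G2
  let H : Fˣ →* twistedG2 F (3 ^ m) := MonoidHom.mk' (fun s => e ⟨_, hf _ (σ_hz h3 s)⟩) fun a b => hj (by
    simp only [map_mul, h1, hz_mul, mu])
  have h6 : ∀ s, j (H s) = hz s (mu φ s) := fun s => h1 _ _
  have h7 := ρS_n hq fun a => Stb.conj_H_of_neg (certG2.sys_φ_inj F) hn' w0G2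
  refine ⟨⟨⟨(frobenius F 3).comp φ, fun t v w => e ⟨_, hf _ (h4 t v w).2⟩, H, e ⟨n, hn⟩, (certG2.sys F).Up.comap j,
    (certG2.sys F).B.comap j, fun t => ?_, fun _ _ _ _ _ _ => hj ?_, fun _ _ _ _ => hj ?_, fun e => ?_, ⟨fun hu => ?_, ?_⟩,
    ⟨fun hb => ?_, ?_⟩, hj (by simp [h1, h5]), fun s => hj ?_, fun g => ?_, fun u hu e => hj ?_⟩,
    fun g => (isogG2.ρS F (j g)).trace, fun s => (s * φ s ^ 2)⁻¹ * isogG2.ρS F n 6 0, fun a b => ?_, fun u hu => ?_,
    fun u hu => ?_, fun s => by simp [h7], fun k hk => ?_, fun u hu s u' hu' => ?_⟩⟩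
  · simp [frobenius_def, h3]
  · simp only [map_mul, h1, XG_mul h3]; rfl
  · simp only [map_mul, map_inv, h1, h6, XG_conj_hz h3]; rfl
  · replace e := congrArg j e
    simp only [map_mul, h1, h6] at e
    have := Sys.nfU_unique (Sys.over_of_mem_H (hz_mem _ _)) (Sys.over_of_mem_H (hz_mem _ _)) (h4 _ _ _).1 (h4 _ _ _).1
      (one_mem _) (one_mem _) ((mul_one _).trans (e.trans (mul_one _).symm))
    exact ⟨XG_inj this.2.1, (cx_hz _ _).symm.trans ((congrArg cx this.2.2.1).trans (cx_hz _ _))⟩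
  · obtain ⟨t, v, w, e⟩ := (mem_XG h3).1 ⟨hu, hK.fix _ (h2 _)⟩
    exact ⟨t, v, w, hj (e.trans (h1 _ _).symm)⟩
  · rintro ⟨t, v, w, rfl⟩
    exact Subgroup.mem_comap.2 ((h1 _ _).symm ▸ (h4 t v w).1)
  · obtain ⟨u, h7, h8, a, h9, h10, e'⟩ := hK.mem_B (h2 _) hb
    exact ⟨e ⟨u, h7⟩, Subgroup.mem_comap.2 ((h1 _ _).symm ▸ h8), cx a, hj (by
      rw [map_mul, h1, h6, e', ← eq_hz_of_fix h10 (hK.fix _ h9)])⟩
  · rintro ⟨u, hu, s, rfl⟩
    exact mul_mem ((certG2.sys F).Up_le_B hu) (Subgroup.mem_comap.2 (h6 s ▸ (certG2.sys F).H_le_B (hz_mem _ _)))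
  · have := Stb.conj_H_of_neg (certG2.sys_φ_inj F) hn' w0G2 (hz_mem s (mu φ s))
    rw [inv_eq_of_mul_eq_one_right h5] at this
    rw [map_mul, map_mul, h1, h6, this, map_inv, map_inv, h6]
  · obtain ⟨w, hw, hc⟩ := (certG2.sys F).exists_cell (j g)
    obtain ⟨h7, u, h8, hu, l, h9, hl, u', h10, hu', e'⟩ := hK.nf (h2 g) hc
    by_cases h11 : w = 1
    · exact Or.inl (Sys.cell_one_iff.1 (h11 ▸ hc))
    have h12 : (stbG2 φ).orb ⟨0, by decide⟩ = Set.univ := Set.eq_univ_of_forall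
      (by decide +kernel : ∀ j : Nd chevG2, Fin.revPerm.SameCycle (⟨0, by decide⟩ : Nd chevG2) j)
    obtain rfl := Stb.eq_w0_orb (i := ⟨0, by decide⟩) (by rwa [h12]) h7 h11
    rw [h12] at hl hu'
    exact Or.inr ⟨e ⟨_, mul_mem h8 (mul_mem h9 (inv_mem hn))⟩, Subgroup.mem_comap.2 ((h1 _ _).symm ▸
      mul_mem ((certG2.sys F).Up_le_B hu) ((certG2.sys F).H_le_B (hl.mul_inv_mem_H hn'))), e ⟨u', h10⟩,
      Subgroup.mem_comap.2 ((h1 _ _).symm ▸ (certG2.sys F).Uw_le_Up _ hu'), hj (by simp [h1, e', mul_assoc])⟩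
  · have := (certG2.sys F).eq_one_of_mem_Um_B (hn'.acts.conj_mem (T := {r | certG2.Pos r}) (T' := {r | ¬ certG2.Pos r})
      (fun r hr h => Cert.pos_w0_univ_iff.1 h hr) hu) (by
        simpa only [Subgroup.mem_comap, map_mul, h1, inv_eq_of_mul_eq_one_right h5] using e)
    simpa using this
  · simp only [map_mul, trace_mul_comm (isogG2.ρS F (j a))]
  · simp only [trace, diag, fun i => ut_Up hu i i le_rfl, one_apply_eq]
    simp; grind
  · simp only [map_mul, h6, ρS_hz, trace, diag, mul_diagonal, fun i => ut_Up hu i i le_rfl, one_apply_eq]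
    simp [Fin.sum_univ_seven, mu]
  · obtain ⟨t, ht⟩ := exists_cube h3 (-φ.symm (isogG2.ρS F n 6 0 / k))
    have h8 : t * φ t ^ 2 = isogG2.ρS F n 6 0 / k := by
      rw [← φ.apply_symm_apply (_ / k), ← neg_inj.1 ht, map_mul, map_pow, map_pow, h3, mul_comm]
    refine ⟨Units.mk0 t (left_ne_zero_of_mul (h8 ▸ div_ne_zero h7 hk)), ?_⟩
    rw [Units.val_mk0, h8]; field_simp
  · have h8 : ∀ M : Matrix (Fin 7) (Fin 7) F, M.trace + (M * isogG2.ρS F (XG φ 0 0 1)).trace +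
        (M * isogG2.ρS F (XG φ 0 0 (-1))).trace = M 6 0 := fun M => by
      rw [← trace_add, ← trace_add, ← mul_one_add, ← mul_add, ρS_z, trace_mul_single, op_smul_eq_mul, mul_one]
    simp only [map_mul, h1, h6, h8, ρS_hz, corner (ut_Up hu) (ut_Up hu')]
    rfl

end Cfsg.Agent.Tw
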