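import Cfsg.Agent.Tw.ReeGow
import Cfsg.Agent.Tw.ReeTr
import Cfsg.Agent.Forms.LieRee

/-! Squares of semisimple classes in the small Ree groups. -/

set_option autoImplicit false
set_option linter.unusedSectionVars false

namespace Cfsg.Agent.Tw

open Cfsg.Agent.CharLib Cfsg.Agent.Sz Subgroup

theorem card_le_of_cover {R α : Type*} [Group R] [Finite α] {S : Subgroup R} (f : α → R) (h : ∀ y ∈ S, ∃ a, f a = y) :
    Nat.card S ≤ Nat.card α := by
  choose g hg using fun y : S => h y y.2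
  exact Nat.card_le_card_of_injective g fun a b e => Subtype.ext (by rw [← hg, e, hg])

variable {R : Type*} [Group R] [Finite R] {F : Type*} [Field F] [Fintype F] [CharP F 3]
  (hc : ∀ a b : R, a ≠ 1 → a * a = 1 → b ≠ 1 → b * b = 1 → IsConj a b)

namespace RBN

variable (P : RBN R F)

theorem J_z (w : F) : P.h (-1) * P.X 0 0 w * (P.h (-1))⁻¹ = P.X 0 0 (-w) := by simp [P.conj]

theorem hn_ne (s : Fˣ) : P.h s * P.n ≠ 1 := fun e => P.cell_notMem (P.h_mem s) (one_mem _) (by simp [e])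

include P hc in
theorem degree (hq : ∃ s : F, s ^ 3 ≠ s) (h4 : ¬ 4 ∣ Fintype.card F * (Fintype.card F - 1)) (χ : R → ℂ)
    (hχ : IsIrrCharacter R χ) (h1 : χ ≠ fun _ => 1) : ∃ n : ℕ, Fintype.card F * (Fintype.card F - 1) + 1 ≤ n ∧ χ 1 = n := by
  have := Fintype.ofFinite R
  obtain ⟨n, ρ, h, rfl⟩ := id hχ
  refine ⟨_, Forms.ree_bound P hq h4 hc (ρ := ρ) fun h2 => h1 (eq_of_inner_ne_zero hχ isIrr_one ?_), ρ.char_one⟩
  have h3 : ∀ {a b}, IsConj a b → b * a⁻¹ ∈ ρ.ker := fun {a b} e => by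
    obtain ⟨c, rfl⟩ := isConj_iff.1 e
    rw [MonoidHom.mem_ker, map_mul, map_mul, map_mul, show ρ c * ρ a = ρ a * ρ c from LinearMap.ext (h2 c a)]
    simp [← map_mul]
  have h5 : ∀ g, ρ.character g = ρ.character 1 := fun g => by
    obtain ⟨s, e⟩ := Forms.ree_comm P hq (M := ρ.ker) (by
      have := h3 (isConj_iff.2 ⟨_, P.J_z 1⟩)
      rwa [show P.X 0 0 (-1) = P.X 0 0 1 * P.X 0 0 1 by rw [P.mul]; congr 1 <;> grind, mul_inv_cancel_right] at this) g
    have := mul_mem e (h3 (hc _ _ (by simpa using P.hn_ne 1) P.n_sq (P.hn_ne s) (P.hn_sq s)))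
    rw [mul_inv_cancel_right, inv_mul_cancel_right, MonoidHom.mem_ker] at this
    rw [Representation.character, this, Representation.character, map_one ρ]
  simpa [classInner, h5, Fintype.card_ne_zero] using isIrr_one_ne_zero hχ

theorem θ_fix {a : F} (h : P.θ a = a) : a = 0 ∨ a = 1 ∨ a = -1 := by
  have := P.θθ a
  grind

theorem card_cent9 {t : F} (ht : t ≠ 0) (v w : F) : Nat.card (centralizer {P.X t v w}) ≤ 3 * Nat.card F := by
  refine (card_le_of_cover (fun p : Fin 3 × F => P.X (![0, 1, -1] p.1 * t) (![0, v, t * P.θ t - v] p.1) p.2)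
    fun y hy => ?_).trans (by simp)
  rw [mem_centralizer_singleton_iff] at hy
  obtain ⟨u, hu, s, rfl⟩ := P.mem_B.1 (P.ti (g := y) (P.X_mem t v w) (by simp [P.X_eq_one, ht])
    (by rw [hy, mul_inv_cancel_right]; exact P.U_le_B (P.X_mem ..)))
  obtain ⟨a, b, c, rfl⟩ := P.mem_U.1 hu
  rw [mul_assoc, ← inv_mul_cancel_right (P.h s * _) (P.h s), P.conj, ← mul_assoc, ← mul_assoc, P.mul, P.mul] at hy
  obtain ⟨⟨h1, h2, h3⟩, -⟩ := P.inj hy
  obtain rfl : s = 1 := Units.ext (by rw [Units.val_one]; grind)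
  obtain ⟨a, rfl⟩ : ∃ d, a = d * t := ⟨a / t, by field_simp⟩
  simp only [Units.val_one, map_one, map_mul] at h2 h3
  have h4 : P.θ t ≠ 0 := by simpa
  rcases P.θ_fix (a := a) (by grind) with rfl | rfl | rfl
  · exact ⟨(0, c), by simp only [map_zero] at h3; simp; congr 1; grind⟩
  · exact ⟨(1, c), by simp only [map_one] at h3; simp; congr 1; grind⟩
  · exact ⟨(2, c), by simp only [map_neg, map_one] at h3; simp; congr 1; grind⟩

theorem card_cent6 {t v : F} (h : v + t * P.θ t ≠ 0) (w : F) :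
    Nat.card (centralizer {P.X t v w * P.h (-1)}) ≤ 2 * Nat.card F := by
  refine (card_le_of_cover (fun p : Fin 2 × F => P.X 0 p.2 (-(t * p.2)) * (P.X t v w * P.h (-1)) ^ p.1.1)
    fun y hy => ?_).trans (by simp)
  have key : ∀ y ∈ centralizer {P.X t v w * P.h (-1)}, y ∈ P.U → ∃ b, P.X 0 b (-(t * b)) = y := fun y hy hu => by
    obtain ⟨a, b, c, rfl⟩ := P.mem_U.1 hu
    rw [mem_centralizer_singleton_iff, mul_assoc, ← inv_mul_cancel_right (P.h _ * _) (P.h (-1)), P.conj, ← mul_assoc,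
      ← mul_assoc, P.mul, P.mul] at hy
    obtain ⟨⟨h1, h2, h3⟩, -⟩ := P.inj hy
    simp only [Units.val_neg, Units.val_one, map_neg, map_one] at h1 h3
    obtain rfl : a = 0 := by grind
    exact ⟨b, by congr 1; rw [map_zero] at h3; grind⟩
  have h1 := (Commute.pow_right (mem_centralizer_singleton_iff.1 hy) 2).eq
  rw [P.sq_J] at h1
  obtain ⟨u, hu, s, rfl⟩ := P.mem_B.1 (P.ti (g := y) (P.X_mem ..) (mt P.X_eq_one.1 fun e => h (neg_eq_zero.1 e.2.1))
    (by rw [h1, mul_inv_cancel_right]; exact P.U_le_B (P.X_mem ..)))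
  obtain ⟨a, b, c, rfl⟩ := P.mem_U.1 hu
  rw [mul_assoc, ← inv_mul_cancel_right (P.h s * _) (P.h s), P.conj, ← mul_assoc (P.X ..), ← mul_assoc (P.X ..), P.mul,
    P.mul] at h1
  have h2 : s * P.θ s = 1 := by have := (P.inj h1).1.2.1; grind
  have h3 := congrArg P.θ h2
  rw [map_mul, map_one, P.θθ] at h3
  rcases units_sq (x := s) (Units.ext (by have := s.ne_zero; simp only [Units.val_mul, Units.val_one]; grind)) with rfl | rfl
  · obtain ⟨b, e⟩ := key _ hy (by simpa using hu)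
    exact ⟨(0, b), by simpa using e⟩
  · obtain ⟨b, e⟩ := key _ (mul_mem hy (inv_mem (mem_centralizer_singleton_iff.2 rfl)))
      (by simpa [mul_assoc] using mul_mem hu (inv_mem (P.X_mem ..)))
    exact ⟨(1, b), by simp [e]⟩

theorem conj_h {s : Fˣ} (hs : s * s ≠ 1) {u : R} (hu : u ∈ P.U) : IsConj (u * P.h s) (P.h s) :=
  (P.exists_conj_h hs hu).exists.elim fun y e => isConj_iff.2 ⟨y.1⁻¹, by rwa [inv_inv]⟩

theorem isConj_γ {w : F} (hw : w ≠ 0) : IsConj (P.X 0 0 1) (P.X 0 0 w) := by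
  have : P.θ w ≠ 0 := by simpa using hw
  refine isConj_iff.2 ⟨P.h (Units.mk0 _ (div_ne_zero (pow_ne_zero 2 hw) this)), ?_⟩
  simp only [P.conj, Units.val_mk0, map_div₀, map_pow, P.θθ, mul_zero]
  congr 1; field_simp

theorem isConj_β {v : F} (hv : v ≠ 0) (w : F) {a : F} (ha : a ≠ 0) (w' : F) :
    IsConj (P.X 0 v w) (P.X 0 (a * a * v) w') := by
  have : P.θ a ≠ 0 := by simpa using ha
  refine (isConj_conj (P.h (Units.mk0 _ (div_ne_zero this ha))) _).trans ?_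
  simp only [P.conj, Units.val_mk0, map_div₀, P.θθ, mul_zero]
  generalize (P.θ a / a) ^ 2 * (a ^ 3 / P.θ a) * w = c
  refine isConj_iff.2 ⟨P.X ((w' - c) / (a * a * v)) 0 0, mul_inv_eq_iff_eq_mul.2 ?_⟩
  simp only [P.mul]
  congr 1 <;> field_simp <;> simp

end RBN

namespace RTor

variable {c : ℕ} (Q : RTor R c)

theorem cent_eq {i : Fin 4} {y : R} (hy : y ∈ Q.T i) (h : y ^ 2 ≠ 1) : centralizer {y} = Q.T i :=
  Subgroup.ext fun _ => mem_centralizer_singleton_iff.trans ⟨Q.cent hy h, fun e => Q.comm e hy⟩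

theorem card_cent {i : Fin 4} {y : R} (hy : y ∈ Q.T i) (h : y ^ 2 ≠ 1) :
    Nat.card (centralizer {y}) ≤ 12 * c ^ 2 + 18 * c + 7 := by
  rw [Q.cent_eq hy h, Q.card_T]
  fin_cases i <;> simp [nT] <;> omega

theorem card_fib {i : Fin 4} {y : R} (hy : y ∈ Q.T i) (h : y ^ 2 ≠ 1) :
    Nat.card {g // g ∈ Q.T i ∧ IsConj y g} = ![2, 6, 6, 6] i := by
  have h1 := card_conj_count (X := {g | IsConj y g}) (Y := {g | g ∈ Q.T i ∧ IsConj y g}) (N := Q.N i)
    (fun x hx => (isConj_iff.1 (IsConj.symm hx)).imp fun g e => by rw [e]; exact ⟨hy, IsConj.refl _⟩)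
    (fun x hx g => hx.2.trans (isConj_conj ..)) fun x hx g => ⟨fun e => (Q.norm hx.1 (by
      obtain ⟨a, rfl⟩ := isConj_iff.1 hx.2
      simpa using h) g).1 e.1, fun e => ⟨Q.conj e hx.1, hx.2.trans (isConj_conj ..)⟩⟩
  rw [← card_conj_mul_card_centralizer y, Q.cent_eq hy h, Q.card_N, mul_assoc, mul_comm (Nat.card (Q.T i))] at h1
  have : Nonempty {g // IsConj y g} := ⟨⟨y, IsConj.refl _⟩⟩
  exact (Nat.eq_of_mul_eq_mul_right Nat.card_pos (Nat.eq_of_mul_eq_mul_left (n := Nat.card {g // IsConj y g}) Nat.card_pos h1)).symm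

theorem card_cls : Nat.card {k : ConjClasses R // ∃ i, ∃ y ∈ Q.T i, y ^ 2 ≠ 1 ∧ ConjClasses.mk y = k} ≤
    12 * c ^ 2 + 12 * c + 1 := by
  classical
  have := Fintype.ofFinite R
  let A i := Finset.univ.filter fun y => y ∈ Q.T i ∧ y ^ 2 ≠ 1
  have h1 : ∀ i, ![2, 6, 6, 6] i * ((A i).image ConjClasses.mk).card ≤ (A i).card := fun i =>
    Finset.mul_card_image_le_card _ _ fun k hk => by
      obtain ⟨y, hy, rfl⟩ := Finset.mem_image.1 hk
      simp only [A, Finset.mem_filter, Finset.mem_univ, true_and] at hy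
      rw [← Q.card_fib hy.1 hy.2, ← Nat.card_eq_finsetCard]
      refine (Nat.card_congr (Equiv.subtypeEquivRight fun g => ?_)).le
      simp only [A, Finset.mem_filter, Finset.mem_univ, true_and, ConjClasses.mk_eq_mk_iff_isConj]
      refine ⟨fun h => ⟨⟨h.1, ?_⟩, h.2.symm⟩, fun h => ⟨h.1.1, h.2.symm⟩⟩
      obtain ⟨a, rfl⟩ := isConj_iff.1 h.2
      simpa using hy.2
  have h2 : ∀ i, Nat.card {y // y ∈ Q.T i ∧ y ^ 2 = 1} + (A i).card = ![2, 4, 1, 1] i * nT c i := fun i => by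
    rw [← Q.card_T, Nat.card_eq_fintype_card, Nat.card_eq_fintype_card, Fintype.card_subtype, Fintype.card_subtype,
      ← Finset.card_filter_add_card_filter_not (fun y => y ^ 2 = 1) (s := Finset.univ.filter (· ∈ Q.T i))]
    simp only [A, Finset.filter_filter]
  have h3 : ∀ i, 0 < Nat.card {y // y ∈ Q.T i ∧ y ^ 2 = 1} := fun i =>
    Nat.card_pos_iff.2 ⟨⟨⟨1, one_mem _, one_pow _⟩⟩, inferInstance⟩
  have h4 : 1 < Nat.card {y // y ∈ Q.T 0 ∧ y ^ 2 = 1} := by
    obtain ⟨y, hy⟩ := exists_prime_orderOf_dvd_card' (G := Q.T 0) 2 (Q.cyc0.2 ▸ dvd_mul_right ..)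
    obtain ⟨h4, h5⟩ := orderOf_eq_prime_iff.1 hy
    exact Finite.one_lt_card_iff_nontrivial.2 ⟨⟨y, y.2, congrArg Subtype.val h4⟩, ⟨1, one_mem _, one_pow _⟩,
      fun e => h5 (Subtype.ext (congrArg (·.1) e :))⟩
  have h5 : Nat.card {k : ConjClasses R // ∃ i, ∃ y ∈ Q.T i, y ^ 2 ≠ 1 ∧ ConjClasses.mk y = k} ≤
      ∑ i, ((A i).image ConjClasses.mk).card := by
    refine le_trans (le_of_eq ?_) Finset.card_biUnion_le
    rw [← Nat.card_eq_finsetCard]
    exact Nat.card_congr (Equiv.subtypeEquivRight fun k => by simp [A, and_assoc])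
  rw [Fin.sum_univ_four] at h5
  have := Q.four
  have := h1 0
  have := h1 1
  have := h1 2
  have := h1 3
  have := h2 0
  have := h2 1
  have := h2 2
  have := h2 3
  have := h3 2
  have := h3 3
  simp only [nT, Matrix.cons_val] at *
  omega

include hc in
theorem cases (P : RBN R F) (g : R) : (∃ i, ∃ y ∈ Q.T i, y ^ 2 ≠ 1 ∧ IsConj y g) ∨
    ∃ u ∈ P.U, IsConj u g ∨ IsConj (u * P.h (-1)) g := by
  by_cases h : 3 ∣ orderOf g
  · obtain ⟨k, hk⟩ := h
    have h0 := orderOf_pos g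
    obtain ⟨a, ha⟩ := P.exists_conj_U' (y := g ^ k) (k := 1) (by rw [← pow_mul, mul_comm, pow_one, ← hk, pow_orderOf_eq_one])
    obtain ⟨u, hu, s, e⟩ := P.mem_B.1 (P.ti (g := a * g * a⁻¹) ha (by
      simpa using pow_ne_one_of_lt_orderOf (by omega) (by omega)) (by
        rw [← conj_pow, ← pow_succ', pow_succ, mul_inv_cancel_right, conj_pow]; exact P.U_le_B ha))
    have h1 : IsConj (u * P.h s) g := e ▸ (isConj_conj ..).symm
    by_cases hs : s * s = 1
    · rcases units_sq hs with rfl | rfl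
      exacts [Or.inr ⟨u, hu, Or.inl (by simpa using h1)⟩, Or.inr ⟨u, hu, Or.inr h1⟩]
    obtain ⟨b, rfl⟩ := isConj_iff.1 ((P.conj_h hs hu).symm.trans h1)
    have h2 := (Dvd.intro _ hk.symm).trans (orderOf_dvd_of_pow_eq_one (n := Nat.card Fˣ) (by
      rw [conj_pow, ← map_pow, pow_card_eq_one']; simp))
    obtain ⟨k, hk0, hk⟩ := Chev.Sys.exists_card_pow F 3
    have := dvd_pow_self 3 hk0.ne'
    have := Nat.pow_pos (n := k) three_pos
    rw [Nat.card_units, hk] at h2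
    omega
  obtain ⟨i, a, ha⟩ := Q.ex ((Nat.Prime.coprime_iff_not_dvd Nat.prime_three).2 h).symm (pow_orderOf_eq_one g)
  by_cases h2 : g ^ 2 = 1
  · refine Or.inr ⟨1, one_mem _, ?_⟩
    by_cases h3 : g = 1
    exacts [Or.inl (h3 ▸ IsConj.refl _), Or.inr (hc _ _ (by simpa using P.J_ne_one) (by simpa using P.J_sq) h3
      (by rwa [← pow_two]))]
  exact Or.inl ⟨i, _, ha, by simpa, (isConj_conj ..).symm⟩

end RTor

namespace RTr

variable (P : RTr R F) {c : ℕ} (Q : RTor R c) (hF : Nat.card F = 12 * c ^ 2 + 12 * c + 3)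

theorem tr_conj {a b : R} (h : IsConj a b) : P.tr a = P.tr b := by
  obtain ⟨c, rfl⟩ := isConj_iff.1 h
  rw [P.tr_comm, inv_mul_cancel_left]

theorem conj_z (s : Fˣ) : IsConj (P.h s * P.n * P.X 0 0 1) (P.h s * P.n * P.X 0 0 (-1)) := by
  have h := P.n_h (-1)
  rw [inv_neg, inv_one, ← eq_mul_inv_iff_mul_eq, P.n_inv] at h
  refine isConj_iff.2 ⟨P.h (-1), ?_⟩
  rw [← P.J_z, ← mul_assoc, ← mul_assoc, ← mul_assoc, ← mul_assoc, mul_assoc _ P.n (P.h _), h, ← mul_assoc, ← map_mul,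
    ← map_mul, mul_comm s]

include hc in
theorem exists_tr {τ : F} (h : τ ≠ -1) : ∃ s, P.tr (P.h s * P.n * P.X 0 0 1) = τ := by
  refine (P.σ_surj (-1 - τ) (by grind)).imp fun s e => ?_
  have h1 := P.kap 1 (one_mem _) s 1 (one_mem _)
  have h2 := P.tr_J 1 (one_mem _)
  rw [one_mul, P.tr_conj (hc _ _ P.J_ne_one P.J_sq (P.hn_ne s) (P.hn_sq s))] at h2
  rw [one_mul, mul_one, h2, ← P.tr_conj (P.conj_z s), e] at h1
  grind

include hc hF in
theorem exists_nz {i : Fin 4} {x : R} (hx : x ∈ Q.T i) (h : x ^ 2 ≠ 1) : ∃ s, IsConj x (P.h s * P.n * P.X 0 0 1) := by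
  classical
  choose s hs using fun τ : {τ : F // ¬ τ ∈ ({1, -1} : Finset F)} => P.exists_tr hc (τ := τ) fun e => τ.2 (by simp [e])
  let f : {τ : F // ¬ τ ∈ ({1, -1} : Finset F)} →
      {k : ConjClasses R // ∃ i, ∃ y ∈ Q.T i, y ^ 2 ≠ 1 ∧ ConjClasses.mk y = k} := fun τ =>
    ⟨ConjClasses.mk (P.h (s τ) * P.n * P.X 0 0 1), by
      rcases Q.cases hc P.toRBN (P.h (s τ) * P.n * P.X 0 0 1) with ⟨i, y, h1, h2, h3⟩ | ⟨u, hu, h1 | h1⟩
      · exact ⟨i, y, h1, h2, ConjClasses.mk_eq_mk_iff_isConj.2 h3⟩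
      · exact absurd (by simp [← hs, ← P.tr_conj h1, P.tr_U u hu]) τ.2
      · exact absurd (by simp [← hs, ← P.tr_conj h1, P.tr_J u hu]) τ.2⟩
  obtain ⟨τ, e⟩ := (Function.Injective.bijective_of_nat_card_le (f := f) (fun a b e => Subtype.ext (by
    rw [← hs, ← hs, P.tr_conj (ConjClasses.mk_eq_mk_iff_isConj.1 (congrArg Subtype.val e))])) (Q.card_cls.trans (by
      rw [Nat.card_eq_fintype_card, Fintype.card_subtype_compl, Fintype.card_coe, Finset.card_pair (by grind),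
        ← Nat.card_eq_fintype_card, hF]
      omega))).2 ⟨_, i, x, hx, h, rfl⟩
  exact ⟨_, (ConjClasses.mk_eq_mk_iff_isConj.1 (congrArg Subtype.val e)).symm⟩

theorem cc_γ {x : R} {s : Fˣ} (h : IsConj x (P.h s * P.n * P.X 0 0 1)) {w : F} (hw : w ≠ 0) : CC x (P.X 0 0 w) :=
  CC.conj ⟨_, _, h.trans (isConj_swap ..), h, by
    rw [mul_assoc, ← mul_assoc (P.h s * P.n), P.hn_sq, one_mul, P.mul]; simp⟩
    ((P.isConj_γ (w := 1 + 1) (by grind)).symm.trans (P.isConj_γ hw))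

theorem real {x : R} {s : Fˣ} (h : IsConj x (P.h s * P.n * P.X 0 0 1)) : IsConj x x⁻¹ := by
  refine (h.trans (P.conj_z s)).trans ((isConj_swap ..).trans (IsConj.trans ?_ (isConj_inv' h).symm))
  rw [mul_inv_rev, inv_eq_of_mul_eq_one_right (P.hn_sq s),
    inv_eq_of_mul_eq_one_right (show P.X 0 0 1 * P.X 0 0 (-1) = 1 by simp [P.mul, P.X_zero])]

theorem cc_β0 {x : R} (h1 : IsConj x x⁻¹) (h2 : x ^ 18 ≠ 1) (h3 : 2 * Nat.card (centralizer {x}) < 3 * Nat.card F) :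
    ∃ v ≠ 0, ∃ w, CC x (P.X 0 v w) := by
  classical
  have := Fintype.ofFinite R
  by_contra! h
  have h4 : ∀ {y v w}, IsConj x y → IsConj x (y * P.X 0 v w) → v = 0 := fun {y v w} e e' => by_contra fun h4 =>
    h v h4 w ⟨_, _, h1.trans (isConj_inv' e), e', by simp⟩
  have h5 : ∀ {y}, IsConj x y → y ∉ P.B := fun {y} e hy => by
    obtain ⟨u, hu, s, hs, rfl⟩ := P.mem_B_cases hy (by
      obtain ⟨a, rfl⟩ := isConj_iff.1 e
      simpa using h2)
    refine one_ne_zero (h4 (w := 0) e ((e.trans (P.conj_h hs hu)).trans (IsConj.symm ?_)))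
    convert P.conj_h hs (mul_mem hu (P.conj_U (P.h_mem s) (P.X_mem 0 1 0))) using 1
    group
  let C w := Finset.univ.filter fun g => IsConj x (g * P.X 0 0 w)
  let E := Finset.univ.filter fun g => ∃ w, IsConj x (g * P.X 0 0 w)
  have h6 : ∀ w, (C w).card = (cls x).card := fun w =>
    Finset.card_equiv (Equiv.mulRight (P.X 0 0 w)) fun g => by simp [C, mem_cls]
  have h7 : ∀ w, C w ⊆ E := fun w g hg => by simp only [C, E, Finset.mem_filter] at hg ⊢; exact ⟨hg.1, w, hg.2⟩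
  have h8 : Disjoint (C 0 ∩ C 1) (C (-1)) := Finset.disjoint_left.2 fun g hg hg' => by
    simp only [C, Finset.mem_inter, Finset.mem_filter, Finset.mem_univ, true_and, P.X_zero, mul_one] at hg hg'
    obtain ⟨b, hb, u, hu, rfl⟩ := (P.cell g).resolve_left (h5 hg.1)
    obtain ⟨y, hy, s, rfl⟩ := P.mem_B.1 hb
    have := P.kap y hy s u hu
    rw [← P.tr_conj hg.1, ← P.tr_conj hg.2, ← P.tr_conj hg'] at this
    exact P.σ_ne s (by grind)
  have h9 := Finset.card_union_add_card_inter (C 0) (C 1)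
  have h10 := Finset.card_le_card (Finset.union_subset (h7 0) (h7 1))
  have h11 := Finset.card_le_card (Finset.union_subset (Finset.inter_subset_left.trans (h7 0) : C 0 ∩ C 1 ⊆ E) (h7 (-1)))
  rw [Finset.card_union_of_disjoint h8] at h11
  simp only [h6] at h9 h11
  have h12 : E.card * Nat.card F ≤ Nat.card R := by
    rw [← Nat.card_eq_finsetCard, ← Nat.card_prod]
    refine Nat.card_le_card_of_injective (fun p => p.1.1 * P.X 0 p.2 0) ?_
    rintro ⟨⟨g, hg⟩, v⟩ ⟨⟨g', hg'⟩, v'⟩ e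
    obtain ⟨w, hw⟩ := (Finset.mem_filter.1 hg).2
    obtain ⟨w', hw'⟩ := (Finset.mem_filter.1 hg').2
    obtain rfl := sub_eq_zero.1 (h4 (v := v - v') (w := w' - w) hw (by
      convert hw' using 1
      rw [show g' = g * P.X 0 v 0 * P.X 0 (-v') 0 by rw [show g * _ = _ from e, mul_assoc, P.mul]; simp [P.X_zero]]
      simp only [mul_assoc, P.mul]
      congr 2 <;> ring))
    simpa using e
  have h13 := (centralizer {x}).index_mul_card
  rw [← card_cls] at h13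
  have : 0 < (cls x).card := Finset.card_pos.2 ⟨x, mem_cls.2 (IsConj.refl _)⟩
  nlinarith

include hF in
theorem cc_β {x : R} (h1 : IsConj x x⁻¹) (h2 : ∃ v ≠ 0, ∃ w, CC x (P.X 0 v w)) {v : F} (hv : v ≠ 0) (w : F) :
    CC x (P.X 0 v w) := by
  classical
  obtain ⟨a, ha, b, h⟩ := h2
  have key : ∀ {a b}, a ≠ 0 → CC x (P.X 0 a b) → IsSquare (v / a) → CC x (P.X 0 v w) := by
    rintro a b ha h ⟨d, e⟩
    have := P.isConj_β ha b (a := d) (left_ne_zero_of_mul (e ▸ div_ne_zero hv ha)) w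
    rw [← e, div_mul_cancel₀ _ ha] at this
    exact h.conj this
  by_cases h3 : IsSquare (v / a)
  · exact key ha h h3
  have h4 : ringChar F ≠ 2 := by rw [ringChar.eq F 3]; norm_num
  refine key (a := -a) (b := -b) (neg_ne_zero.2 ha) (by
    convert h.inv h1 using 1
    exact eq_inv_of_mul_eq_one_left (by simp [P.mul, P.X_zero])) ?_
  rw [← quadraticChar_one_iff_isSquare (div_ne_zero hv (neg_ne_zero.2 ha)), div_neg, ← neg_one_mul, map_mul,
    quadraticChar_neg_one_iff_not_isSquare.2 h3, quadraticChar_neg_one_iff_not_isSquare.2 (by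
      rw [FiniteField.isSquare_neg_one_iff, ← Nat.card_eq_fintype_card, hF]; omega)]
  norm_num

include hc P Q hF in
theorem cc_all (h0 : 0 < c) {x : R} (h1 : 2 < orderOf x) (h2 : ¬ 3 ∣ orderOf x) {g : R} (hg : g ≠ 1) : CC x g := by
  have h3 := ((Nat.Prime.coprime_iff_not_dvd Nat.prime_three).2 h2).symm
  have h4 : x ^ 18 ≠ 1 := fun e => h1.not_ge (Nat.le_of_dvd two_pos ((h3.pow_right 2).dvd_of_dvd_mul_right
    (orderOf_dvd_of_pow_eq_one e)))
  obtain ⟨i, a, ha⟩ := Q.ex h3 (pow_orderOf_eq_one x)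
  refine CC.left ?_ (isConj_conj a x)
  replace h4 : (a * x * a⁻¹) ^ 18 ≠ 1 := by simpa
  generalize a * x * a⁻¹ = y at ha h4
  have h5 : y ^ 2 ≠ 1 := fun e => h4 (by rw [show 18 = 2 * 9 from rfl, pow_mul, e, one_pow])
  have h6 := Q.card_cent ha h5
  obtain ⟨s, hs⟩ := P.exists_nz hc Q hF ha h5
  have h7 : ∀ {g : R}, Nat.card (centralizer {g}) ≤ 3 * Nat.card F → CC y g := fun h => by
    refine cc_of_degree (P.degree hc (exists_pow_ne F (by norm_num) (by nlinarith)) ?_) ?_ <;>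
      rw [← Nat.card_eq_fintype_card, hF, show 12 * c ^ 2 + 12 * c + 3 - 1 = 12 * c ^ 2 + 12 * c + 2 from rfl]
    · ring_nf; omega
    · refine (Nat.mul_le_mul (Nat.pow_le_pow_left (Nat.sub_le_sub_right h6 1) 2) (hF ▸ h)).trans_lt ?_
      obtain ⟨c, rfl⟩ := Nat.exists_eq_add_of_lt h0
      rw [show ∀ n, n + 7 - 1 = n + 6 from fun _ => rfl]
      ring_nf; omega
  rcases Q.cases hc P.toRBN g with ⟨j, z, h8, h9, h10⟩ | ⟨u, hu, h8 | h8⟩
  · exact (h7 ((Q.card_cent h8 h9).trans (by omega))).conj h10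
  all_goals obtain ⟨t, v, w, rfl⟩ := P.mem_U.1 hu
  · refine CC.conj ?_ h8
    by_cases ht : t = 0
    · subst ht
      by_cases hv : v = 0
      · subst hv
        exact P.cc_γ hs fun e => hg (isConj_one_right.1 (by simpa [e, P.X_zero] using h8))
      · exact P.cc_β hF (P.real hs) (P.cc_β0 (P.real hs) h4 (by nlinarith)) hv w
    · exact h7 (P.card_cent9 ht v w)
  · refine CC.conj ?_ h8
    by_cases hv : v + t * P.θ t = 0
    · exact (P.cc_J hc h4).conj ((P.isConj_J_B hc).2 ⟨(t, w), by rw [eq_neg_of_add_eq_zero_left hv]⟩).2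
    · exact h7 ((P.card_cent6 hv w).trans (by omega))

end RTr

end Cfsg.Agent.Tw
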