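import Cfsg.Agent.Tw.LangC
import Cfsg.Agent.Tw.E6Tab

/-! Elements of order 5 of the torus of `E₆` conjugate to their squares. -/

set_option autoImplicit false

namespace Cfsg.Agent.Tw

open Cfsg.Lie Cfsg.Lie.ChevalleyDatum Cfsg.Agent.Chev Cfsg.Agent.Lang Equiv

theorem ok5_spec {n : ℕ} (hn : n < 15625) : (n = 0 ∨ n = 4403 ∨ cnt5 n 1 ≠ cnt5 n 2) ∨ ∃ i : Nd chevE6, ∃ m < 15625,
    en5 m / 8 < en5 n / 8 ∧ ∀ j : Nd chevE6, dg5 m j = (dg5 n j + nA5 i j * dg5 n i) % 5 := by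
  have h := allLt_spec (allLt_spec ok5_all (n / 125) (by omega)) (n % 125) (by omega)
  rw [Nat.div_add_mod, ok5, force_eq, force_eq] at h
  cases e : en5 n / 8 == 0 <;> simp only [e, cond_true, cond_false, Bool.and_eq_true, decide_eq_true_eq, Bool.or_eq_true,
    beq_iff_eq, bne_iff_ne, List.all_eq_true, or_assoc] at h
  · exact Or.inr ⟨⟨_, h.1.1.1⟩, _, h.1.1.2, h.1.2, fun j => h.2 j (by revert j; decide)⟩
  · exact Or.inl h

theorem exists_dg5 (v : Fin 6 → ℕ) (h : ∀ i, v i < 5) : ∃ n < 15625, ∀ i : Fin 6, dg5 n i = v i := by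
  have := h 0; have := h 1; have := h 2; have := h 3; have := h 4; have := h 5
  refine ⟨v 0 + 5 * v 1 + 25 * v 2 + 125 * v 3 + 625 * v 4 + 3125 * v 5, by omega, fun i => ?_⟩
  fin_cases i <;> simp [dg5] <;> omega

theorem vl5_refl (n : ℕ) (i j : Fin 6) : (5 : ℤ) ∣ ∑ l : Fin 6, (dg5 n l : ℤ) * rcE6 (reflE6 i (chevE6.simple j)) l -
    (dg5 n j + nA5 i j * dg5 n i : ℕ) := by
  choose c hc using (by decide +kernel : ∀ i j l : Fin 6, (5 : ℤ) ∣ rcE6 (reflE6 i (chevE6.simple j)) l -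
    ((if l = j then 1 else 0) + if l = i then (nA5 i j : ℤ) else 0)) i j
  simp only [sub_eq_iff_eq_add] at hc
  simp only [hc, mul_add, Finset.sum_add_distrib, mul_ite, mul_one, mul_zero, Finset.sum_ite_eq', Finset.mem_univ, if_true]
  exact ⟨∑ l : Fin 6, dg5 n l * c l, by rw [Finset.mul_sum]; push_cast; ring_nf⟩

variable {k : Type*} [Field k] {a : chevE6.group k} {ξ : kˣ}

theorem chiE6 (ha : a ∈ (certE6.sys k).H) {v : Fin 6 → ℕ} (h : ∀ i, (certE6.sys k).chi a (certE6.sp i) = ξ ^ v i)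
    (r : Rt chevE6) : (certE6.sys k).chi a r = ξ ^ ∑ j : Fin 6, (v j : ℤ) * rcE6 r j := by
  rw [(Sys.isChar_chi ha).eq_chr r]
  simp only [Cert.chr, certE6_rc, h, ← zpow_natCast, prod_zpow_zpow]
  rfl

theorem chi5 (ha : a ∈ (certE6.sys k).H) {n : ℕ} (h : ∀ i, (certE6.sys k).chi a (certE6.sp i) = ξ ^ dg5 n i)
    (r : Rt chevE6) : (certE6.sys k).chi a r = ξ ^ vl5 n r := chiE6 ha (v := fun i => dg5 n i) h r

theorem conj_five (hξ : IsPrimitiveRoot ξ 5) {a₀ : chevE6.group k} (h0 : a₀ ∈ (certE6.sys k).H)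
    (h0' : ∀ i, (certE6.sys k).chi a₀ (certE6.sp i) = ξ ^ dg5 4403 i) (ha : a ∈ (certE6.sys k).H) (h5 : a ^ 5 = 1)
    (h1 : a ≠ 1) {π : Perm (Rt chevE6)} (hπ : ∀ r, (certE6.sys k).chi a (π r) = (certE6.sys k).chi a r ^ 2) :
    ∃ m, a = m * a₀ * m⁻¹ := by
  have hi := certE6.sys_φ_inj k
  obtain ⟨n, hn, h⟩ : ∃ n < 15625, ∀ i, (certE6.sys k).chi a (certE6.sp i) = ξ ^ dg5 n i := by
    choose v hv hv' using fun i => hξ.eq_pow_of_mem_rootsOfUnity (ξ := (certE6.sys k).chi a (certE6.sp i))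
      (by rw [mem_rootsOfUnity, ← Sys.chi_pow ha, h5, Sys.chi_one])
    obtain ⟨n, hn, h⟩ := exists_dg5 v hv
    exact ⟨n, hn, fun i => by rw [← hv']; exact congrArg _ (h i).symm⟩
  clear h5
  induction hd : en5 n / 8 using Nat.strong_induction_on generalizing n a π with
  | _ d ih =>
  rcases ok5_spec hn with (rfl | rfl | e) | ⟨i, m, hm, h2, h3⟩
  · exact absurd ((certE6.sys k).eq_of_chi hi ha (one_mem _) fun i => by simp [h, dg5, Sys.chi_one]) h1
  · exact ⟨1, by simpa using (certE6.sys k).eq_of_chi hi ha h0 fun i => by rw [h, h0']⟩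
  · refine absurd (Finset.card_bijective π π.bijective fun r => ?_) e
    have := hπ r
    rw [chi5 ha h, chi5 ha h, ← zpow_natCast, ← zpow_mul, ← mul_inv_eq_one, ← zpow_sub,
      hξ.zpow_eq_one_iff_dvd] at this
    simp only [Finset.mem_filter, Finset.mem_univ, true_and]
    omega
  · have h4 := (certE6.sys k).over_ns i 1
    generalize (certE6.sys k).n (certE6.sp i) 1 = z at h4
    have h6 : ∀ r, (certE6.sys k).chi (z * a * z⁻¹) r = (certE6.sys k).chi a (certE6.ss i r) := fun r => by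
      rw [← Sys.chi_conj h4 ha (certE6.ss i r), Cert.ss_ss]
    obtain ⟨y, hy⟩ := ih _ (hd ▸ h2) ((certE6.sys k).N_conj_H h4.mem_N ha) (by simpa using h1)
      (π := certE6.ss i * π * certE6.ss i) (fun r => by simp only [h6, Perm.mul_apply, Cert.ss_ss, hπ]) m hm
      (fun j => by
        rw [h6, chi5 ha h, h3, ← pow_eq_pow_mod _ hξ.pow_eq_one, ← zpow_natCast, ← mul_inv_eq_one, ← zpow_sub,
          hξ.zpow_eq_one_iff_dvd, vl5, ssE6]
        exact vl5_refl n i j) rfl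
    exact ⟨z⁻¹ * y, by rw [mul_inv_eq_iff_eq_mul, ← eq_inv_mul_iff_mul_eq] at hy; rw [hy]; group⟩

end Cfsg.Agent.Tw
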