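import Cfsg.Agent.Tw.E6Five
import Cfsg.Agent.Tw.InvTw
import Cfsg.Agent.Tw.A8

/-! The group `²E₆(2)` over the algebraic closure. -/

set_option autoImplicit false
set_option linter.unusedSectionVars false

namespace Cfsg.Agent.Tw

open Cfsg.Lie Cfsg.Lie.ChevalleyDatum Cfsg.Agent.Chev Cfsg.Agent.Lang Cfsg.Agent.RGD Equiv
open scoped commutatorElement

theorem σx_E6 {F : Type*} [Field F] [CharP F 2] {φ : F ≃+* F} (hφ : ∀ t, φ t = t ^ 2) (r : Rt chevE6) (t : F) :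
    (stbE6 φ).σ ((certE6.sys F).x r t) = (certE6.sys F).x (symE6.ρ r) (t ^ 2) := by
  rw [Stb.σ_x, show (stbE6 φ).e r = 1 from symE6.e_two symE6_ok φ r, Units.val_one, one_mul, ← hφ]; rfl

/-- exponents of the fundamental roots -/
def eZ (i : ℕ) : ℕ := [3, 0, 1, 0, 2, 6].getD i 0

/-- exponents of the roots -/
def vZ (r : ℕ) : ℤ := ∑ j : Fin 6, eZ j * rcE6 r j

variable {k : Type*} [Field k] {a a' : chevE6.group k} {b b' : kˣ}

/-- a one-parameter subgroup of the torus -/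
def ZE (b : kˣ) (a : chevE6.group k) : Prop :=
  a ∈ (certE6.sys k).H ∧ ∀ i, (certE6.sys k).chi a (certE6.sp i) = b ^ eZ i

theorem ZE.chi (h : ZE b a) (r : Rt chevE6) : (certE6.sys k).chi a r = b ^ vZ r :=
  chiE6 h.1 (v := fun i => eZ i) h.2 r

theorem ZE.pow (h : ZE b a) (n : ℕ) : ZE (b ^ n) (a ^ n) :=
  ⟨pow_mem h.1 n, fun i => by rw [Sys.chi_pow h.1, h.2, pow_right_comm]⟩

theorem ZE.unique (h : ZE b a) (h' : ZE b a') : a = a' :=
  (certE6.sys k).eq_of_chi (certE6.sys_φ_inj k) h.1 h'.1 fun i => by rw [h.2, h'.2]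

theorem ZE.one : ZE (1 : kˣ) 1 := ⟨one_mem _, fun i => by rw [Sys.chi_one, one_pow]⟩

theorem exists_ZE [IsAlgClosed k] (b : kˣ) : ∃ a, ZE b a := exists_chi_sp fun i => b ^ eZ i

theorem ZE.chi_eq_one (h : ZE b a) {n : ℕ} (hb : b ^ n = 1) {r : Rt chevE6} (hr : (n : ℤ) ∣ vZ r) :
    (certE6.sys k).chi a r = 1 := by
  obtain ⟨c, hc⟩ := hr
  rw [h.chi, hc, zpow_mul, zpow_natCast, hb, one_zpow]

theorem zpow_eq_of_dvd {n : ℕ} (hb : b ^ n = 1) {i j : ℤ} (h : (n : ℤ) ∣ i - j) : b ^ i = b ^ j := by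
  obtain ⟨c, hc⟩ := h
  rw [sub_eq_iff_eq_add.1 hc, zpow_add, zpow_mul, zpow_natCast, hb, one_zpow, one_mul]

theorem ZE.eq_one {F : Type*} [Field F] [Finite F] [Algebra F k] (hF : Nat.card F = 2 ^ 2) (h : ZE b a) (hb : b ^ 3 = 1)
    (ha : a ∈ (io certE6 k F).range) : a = 1 := by
  obtain ⟨x, rfl⟩ := ha
  obtain ⟨t, ht⟩ := exists_hh_of_io h.1
  have h1 : ∏ j, (certE6.sys k).chi (io certE6 k F x) (certE6.sp j) ^ certE6.cinv j ⟨0, by decide⟩ = 1 := by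
    simp only [ht, Sys.chi_hh, ← Finset.prod_zpow]
    rw [Finset.prod_comm]
    refine Finset.prod_eq_one fun i _ => ?_
    rw [prod_zpow_zpow, Cert.mul_cinv]
    split_ifs
    · have : t i ^ 3 = 1 := by simpa [Nat.card_units, hF] using pow_card_eq_one' (x := t i)
      rw [certE6_cdet, ← map_zpow, show t i ^ (3 : ℤ) = 1 from this, map_one]
    · exact zpow_zero _
  simp only [h.2, ← zpow_natCast, prod_zpow_zpow] at h1
  obtain rfl : b = 1 := by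
    rwa [zpow_eq_of_dvd hb (j := 1) (by change _ ∣ ∑ j : Fin 6, eZ j * cinvE6 j 0 - 1; decide), zpow_one] at h1
  exact h.unique ZE.one

section

variable {ψ : k ≃+* k} (hψ : ∀ t, ψ t = t ^ 2)
include hψ

theorem fuE6 (r : Rt chevE6) (t : kˣ) : (stbE6 ψ).fu r t = t ^ 2 := Units.ext (hψ t)

theorem ZE.mem_TH (h : ZE b a) (hb : b ^ 15 = 1) : a ∈ (stbE6 ψ).TH (certE6.ss ⟨0, by decide⟩) :=
  Stb.mem_TH_of_sp (certE6.sys_φ_inj k) (certE6.ss_mem_W _) h.1 fun i => by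
    rw [fuE6 hψ, h.chi, h.chi, ← zpow_natCast, ← zpow_mul, ssE6]
    exact zpow_eq_of_dvd hb ((by decide +kernel : ∀ i : Nd chevE6, ((15 : ℕ) : ℤ) ∣
      vZ (reflE6 0 (chevE6.simple (symE6.ν i))) - vZ (chevE6.simple i) * (2 : ℕ)) i)

theorem ZE.fix (h : ZE b a) (hb : b ^ 3 = 1) : (stbE6 ψ).σ a = a := by
  simpa using (Stb.mem_TH_iff (certE6.sys_φ_inj k) (Sys.over_one _) h.1).1
    (Stb.mem_TH_of_sp (T := stbE6 ψ) (certE6.sys_φ_inj k) (one_mem _) h.1 fun i => by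
      rw [fuE6 hψ, h.chi, h.chi, ← zpow_natCast, ← zpow_mul]
      exact zpow_eq_of_dvd hb ((by decide +kernel : ∀ i : Nd chevE6, ((3 : ℕ) : ℤ) ∣
        vZ (chevE6.simple (symE6.ν i)) - vZ (chevE6.simple i) * (2 : ℕ)) i))

theorem exists_ZE_of_TH (h : a ∈ (stbE6 ψ).TH (certE6.ss ⟨0, by decide⟩)) : ∃ b, b ^ 15 = 1 ∧ ZE b a := by
  have h1 : ∀ i j : Nd chevE6, reflE6 0 (symE6.ρ (certE6.sp i)) = chevE6.simple j →
      (certE6.sys k).chi a (certE6.sp j) = (certE6.sys k).chi a (certE6.sp i) ^ 2 := fun i j e => by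
    rw [← fuE6 hψ (certE6.sp i), ← h.2]; congr 1; exact Fin.ext (e.symm.trans (ssE6 ⟨0, by decide⟩ _).symm)
  have e5 := h1 ⟨0, by decide⟩ ⟨5, by decide⟩ (by decide +kernel)
  have e4 := h1 ⟨2, by decide⟩ ⟨4, by decide⟩ (by decide +kernel)
  have e1 := h1 ⟨1, by decide⟩ ⟨1, by decide⟩ (by decide +kernel)
  have e3 := h1 ⟨3, by decide⟩ ⟨3, by decide⟩ (by decide +kernel)
  have e0 := h.2 (certE6.sp ⟨4, by decide⟩)
  have e6 := h.2 (certE6.sp ⟨5, by decide⟩)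
  rw [(Sys.isChar_chi h.1).2 (certE6.sp ⟨0, by decide⟩) (certE6.sp ⟨2, by decide⟩) _ (funext fun m => by
    rw [certE6_rc, ssE6]
    exact (by decide +kernel : ∀ m : Nd chevE6, rcE6 (reflE6 0 (symE6.ρ (certE6.sp ⟨4, by decide⟩))) m =
      rcE6 (chevE6.simple 0) m + rcE6 (chevE6.simple 2) m) m), fuE6 hψ, e4, ← eq_mul_inv_iff_mul_eq] at e0
  rw [Stb.sp, show (stbE6 ψ).π ⟨5, by decide⟩ = ⟨0, by decide⟩ from rfl, fuE6 hψ, certE6.ss_sp,
    (Sys.isChar_chi h.1).1, e5, e0, inv_eq_iff_mul_eq_one] at e6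
  rw [pow_two, left_eq_mul] at e1 e3
  refine ⟨(certE6.sys k).chi a (certE6.sp ⟨2, by decide⟩), by rw [← e6]; group, h.1, fun i => ?_⟩
  fin_cases i
  exacts [e0.trans (by simp only [eZ]; group; rfl), e1.trans (pow_zero _).symm, (pow_one _).symm, e3.trans (pow_zero _).symm, e4,
    e5.trans (by rw [e0]; simp only [eZ]; group; rfl)]

theorem exists_ZE_of_fix [IsAlgClosed k] [CharP k 2] {F : Type*} [Field F] [Finite F] [Algebra F k]
    (hF : Nat.card F = 2 ^ 2) (ha : a ∈ (certE6.sys k).H) (h : (stbE6 ψ).σ a = a) :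
    ∃ b z, b ^ 3 = 1 ∧ ZE b z ∧ z⁻¹ * a ∈ (io certE6 k F).range := by
  have h0 := (Stb.mem_TH_iff (T := stbE6 ψ) (certE6.sys_φ_inj k) (Sys.over_one _) ha).2 (by simpa using h)
  have h1 : ∀ i, (certE6.sys k).chi a (certE6.sp (symE6.ν i)) = (certE6.sys k).chi a (certE6.sp i) ^ 2 := fun i => by
    rw [← fuE6 hψ (certE6.sp i), ← h0.2, Stb.sp]; rfl
  generalize hx : (certE6.sys k).chi a (certE6.sp ⟨0, by decide⟩) = x
  generalize hy : (certE6.sys k).chi a (certE6.sp ⟨2, by decide⟩) = y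
  have e5 : (certE6.sys k).chi a (certE6.sp ⟨5, by decide⟩) = x ^ 2 := hx ▸ h1 ⟨0, by decide⟩
  have e4 : (certE6.sys k).chi a (certE6.sp ⟨4, by decide⟩) = y ^ 2 := hy ▸ h1 ⟨2, by decide⟩
  have e1 := left_eq_mul.1 ((h1 ⟨1, by decide⟩).trans (pow_two _))
  have e3 := left_eq_mul.1 ((h1 ⟨3, by decide⟩).trans (pow_two _))
  have e0 : x ^ 3 = 1 := left_eq_mul.1 ((hx.symm.trans (h1 ⟨5, by decide⟩)).trans (by rw [e5]; group))
  have e2 : y ^ 3 = 1 := left_eq_mul.1 ((hy.symm.trans (h1 ⟨4, by decide⟩)).trans (by rw [e4]; group))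
  obtain ⟨z, hz⟩ := exists_ZE (x ^ 2 * y)
  have e6 : (x ^ 2 * y) ^ 3 = 1 := by rw [mul_pow, pow_right_comm, e0, e2, one_pow, one_mul]
  refine ⟨_, z, e6, hz, ?_⟩
  rw [(certE6.sys k).eq_of_chi (certE6.sys_φ_inj k) (mul_mem (inv_mem hz.1) ha)
    ((certE6.sys k).hh_mem fun i => x ^ ([2, 0, 0, 0, 0, 1].getD i 0 : ℤ)) fun j => ?_]
  · refine hh_mem_range (p := 2) hF (funext fun i => ?_)
    rw [Pi.pow_apply, ← zpow_natCast, ← zpow_mul]
    exact zpow_eq_of_dvd e0 (by revert i; decide)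
  simp only [Sys.chi_hh, prod_zpow_zpow, Cert.A_sp, cartanE6]
  rw [Sys.chi_mul (inv_mem hz.1) ha, Sys.chi_inv hz.1, hz.2, inv_mul_eq_iff_eq_mul,
    zpow_eq_of_dvd e0 (j := ([1, 0, 1, 0, 2, 2].getD j 0 : ℕ)) (by revert j; decide +kernel), zpow_natCast]
  fin_cases j
  · exact hx.trans (by rw [show eZ _ = 3 from rfl, e6]; simp)
  · exact e1.trans (by simp [eZ])
  · exact hy.trans (show y = (x ^ 2 * y) ^ 1 * x ^ 1 by
      rw [← mul_pow, mul_right_comm, ← pow_succ, e0, one_mul, pow_one])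
  · exact e3.trans (by simp [eZ])
  · exact e4.trans (show y ^ 2 = (x ^ 2 * y) ^ 2 * x ^ 2 by rw [← mul_pow, mul_right_comm, ← pow_succ, e0, one_mul])
  · exact e5.trans (by rw [show eZ _ = 3 * 2 from rfl, pow_mul, e6]; simp)

variable [CharP k 2]

theorem iter_E6 (g : chevE6.group k) : (stbE6 ψ).σ^[2] g = fr certE6 2 2 g :=
  DFunLike.congr_fun ((certE6.sys k).hom_ext (f := (stbE6 ψ).σ.toMonoidHom.comp (stbE6 ψ).σ.toMonoidHom) fun r t => by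
    simp only [fr_x, MonoidHom.comp_apply, MulEquiv.coe_toMonoidHom, σx_E6 hψ, ← pow_mul,
      (by decide +kernel : ∀ r, symE6.ρ (symE6.ρ r) = r)]; rfl) g

theorem io_E6 {F : Type*} [Field F] [CharP F 2] [Algebra F k] {φ : F ≃+* F} (hφ : ∀ t, φ t = t ^ 2) (g : chevE6.group F) :
    (stbE6 ψ).σ (io certE6 k F g) = io certE6 k F ((stbE6 φ).σ g) :=
  DFunLike.congr_fun ((certE6.sys F).hom_ext (f := (stbE6 ψ).σ.toMonoidHom.comp (io certE6 k F))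
    (g := (io certE6 k F).comp (stbE6 φ).σ.toMonoidHom) fun r t => by
    simp only [MonoidHom.comp_apply, MulEquiv.coe_toMonoidHom, io, Cert.baseHom_x, σx_E6 hφ, σx_E6 hψ, map_pow]) g

end

/-- the roots of the subsystem of type `A₃` -/
def rA3 (r : ARoot 4) : Rt chevE6 :=
  ⟨([[0, 0, 1, 2], [71, 0, 46, 47], [70, 25, 0, 39], [69, 24, 32, 0]].getD r.1.1 []).getD r.1.2 0 % 72,
    Nat.mod_lt _ (by decide)⟩

theorem exists_SL4 (k : Type*) [Field k] [CharP k 2] : ∃ φ : Matrix.SpecialLinearGroup (Fin 4) (ZMod 2) →* chevE6.group k,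
    ∀ r t, φ ((slFam (ZMod 2) 4).x r t) = (certE6.sys k).x (rA3 r) (ZMod.castHom (dvd_refl 2) k t) := by
  refine exists_fromSL (m := 3) (by decide) ⟨fun r t => (certE6.sys k).x (rA3 r) (ZMod.castHom (dvd_refl 2) k t),
    fun r t u => by rw [map_add, Sys.x_add]⟩ (fun a b c h h' h'' t u => ?_) fun r s h h' t u => ?_
  · obtain ⟨h1, h2, h3, h4⟩ := (by decide +kernel : ∀ a b c (h : a ≠ b) (h' : b ≠ c) (h'' : a ≠ c),
      (∀ j : Fin 6, rcE6 (rA3 ⟨(a, c), h''⟩) j = rcE6 (rA3 ⟨(b, c), h'⟩) j + rcE6 (rA3 ⟨(a, b), h⟩) j) ∧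
      certE6.N (rA3 ⟨(a, c), h''⟩) (rA3 ⟨(b, c), h'⟩) = 0 ∧ certE6.N (rA3 ⟨(a, c), h''⟩) (rA3 ⟨(a, b), h⟩) = 0 ∧
      certE6.N (rA3 ⟨(b, c), h'⟩) (rA3 ⟨(a, b), h⟩) ^ 2 = 1) a b c h h' h''
    have := (certE6.sys k).comm_simple (funext h1) (fun _ e => certE6.N_ne_zero_of_add e h2)
      (fun _ e => certE6.N_ne_zero_of_add e h3) (-ZMod.castHom (dvd_refl 2) k u) (-ZMod.castHom (dvd_refl 2) k t)
    simp only [Sys.x_neg, inv_inv] at this
    rw [commutatorElement_def]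
    refine this.trans ?_
    rcases sq_eq_one_iff.1 h4 with e | e <;> simp [e, mul_comm, ← Sys.x_neg, CharTwo.neg_eq]
  · obtain ⟨h1, h2⟩ := (by decide +kernel : ∀ r s : ARoot 4, r.1.2 ≠ s.1.1 → s.1.2 ≠ r.1.1 →
      rA3 s ≠ (rA3 r).rev ∧ certE6.N (rA3 r) (rA3 s) = 0) r s h h'
    exact commutatorElement_eq_one_iff_mul_comm.2 ((certE6.sys k).commute_of_N h1 h2 _ _)

end Cfsg.Agent.Tw
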